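import Cfsg.Agent.ConstFour.Decomp
import Mathlib.GroupTheory.Perm.Cycle.Type

/-!
# The characters with nonzero value: two of degree three and one of degree five
-/

set_option autoImplicit false
set_option linter.unusedSectionVars false

open scoped ComplexConjugate Classical
open Cfsg

namespace Cfsg.Agent.ConstFour

universe u

variable {G : Type u} [Group G] [Fintype G] {t : G}

/-- The complex conjugate character. -/
noncomputable def cj (χ : IrrCharacter G) : IrrCharacter G :=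
  ⟨fun g => conj ((χ : G → ℂ) g), Char.isIrrCharacter_conjFun χ.2⟩

theorem cj_apply (χ : IrrCharacter G) (g : G) :
    ((cj χ : IrrCharacter G) : G → ℂ) g = conj ((χ : G → ℂ) g) := rfl

theorem cj_cj (χ : IrrCharacter G) : cj (cj χ) = χ :=
  Subtype.ext (funext fun g => Complex.conj_conj _)

theorem three_cj {χ : IrrCharacter G} (h : Three t χ) : Three t (cj χ) :=
  ⟨by simp [cj_apply, h.1, map_ofNat], by simp [cj_apply, h.2]⟩

theorem conj_of_real {θ : IrrCharacter G} (hr : cj θ = θ) (g : G) :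
    conj ((θ : G → ℂ) g) = (θ : G → ℂ) g :=
  congrFun (congrArg Subtype.val hr) g

theorem classInner_conj_conj (a b : G → ℂ) :
    classInner (fun g => conj (a g)) (fun g => conj (b g)) = conj (classInner a b) := by
  simp only [classInner, map_mul, map_inv₀, map_sum, map_natCast]

/-- In a real character conjugate constituents have equal multiplicity. -/
theorem mult_cj {F : G → ℂ} (hreal : ∀ g, conj (F g) = F g) {m : IrrCharacter G → ℕ}
    (hm : ∀ χ : IrrCharacter G, classInner F (χ : G → ℂ) = m χ) (χ : IrrCharacter G) :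
    m (cj χ) = m χ := by
  have h := classInner_conj_conj F (χ : G → ℂ)
  rw [funext hreal, hm χ, map_natCast] at h
  have h2 := hm (cj χ)
  rw [show ((cj χ : IrrCharacter G) : G → ℂ) = fun g => conj ((χ : G → ℂ) g) from rfl, h] at h2
  exact_mod_cast h2.symm

/-- A character is the sum over the three kinds of its constituents. -/
theorem expand (h : Hyp t) {F : G → ℂ} (hF : IsCharacter G F) {m : IrrCharacter G → ℕ}
    (hm : ∀ χ : IrrCharacter G, classInner F (χ : G → ℂ) = m χ) (g : G) :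
    F g = (m one : ℂ) + (∑ χ ∈ Finset.univ.filter (Three t), (m χ : ℂ) * (χ : G → ℂ) g)
      + (∑ χ ∈ Finset.univ.filter (Big t), (m χ : ℂ) * (χ : G → ℂ) g)
      + ∑ χ ∈ Finset.univ.filter (Zero t), (m χ : ℂ) * (χ : G → ℂ) g := by
  have e := sum_split h (fun χ => (m χ : ℂ) * (χ : G → ℂ) g)
  rw [one_apply, mul_one] at e
  rw [← e]
  conv_lhs => rw [Char.eq_sum_classInner_smul (Char.isCharacter_isClassFunction hF)]
  simp [Finset.sum_apply, hm]

/-- Every big character is a constituent of a product of two of degree three. -/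
theorem big_in_prod (h : Hyp t) {χ θ : IrrCharacter G} (hχ : Big t χ) (hθ : Three t θ) :
    ∃ ξ : IrrCharacter G, Three t ξ ∧
      classInner (fun g => conj ((θ : G → ℂ) g) * (ξ : G → ℂ) g) (χ : G → ℂ) ≠ 0 := by
  set F : G → ℂ := fun g => (θ : G → ℂ) g * (χ : G → ℂ) g with hFdef
  have hF : IsCharacter G F :=
    Char.isCharacter_mul (Char.isCharacter_of_irr θ.2) (Char.isCharacter_of_irr χ.2)
  have hF1 : F 1 = ((3 * deg χ : ℕ) : ℂ) := by simp [hFdef, hθ.1, one_eq_deg]
  have hFt : F t = ((4 - deg χ : ℤ) : ℂ) := by simp [hFdef, hθ.2, hχ.2]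
  obtain ⟨m, hm, -, hv, -⟩ := decomp h hF hF1 hFt
  have := hχ.1
  obtain ⟨ξ, hξ, hξm⟩ := Finset.exists_ne_zero_of_sum_ne_zero
    (show (∑ χ ∈ Finset.univ.filter (Three t), m χ) ≠ 0 from fun hh => by
      rw [show cThree t m = 0 from hh] at hv; omega)
  refine ⟨ξ, (Finset.mem_filter.mp hξ).2, fun h0 => hξm ?_⟩
  have h1 := hm ξ
  rw [hFdef, classInner_mul_left, ← Char.classInner_conj, h0, map_zero] at h1
  exact_mod_cast h1.symm

/-- Big characters have degree five or six. -/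
theorem big_deg (h : Hyp t) {χ θ : IrrCharacter G} (hχ : Big t χ) (hθ : Three t θ) :
    deg χ = 5 ∨ deg χ = 6 := by
  obtain ⟨ξ, hξ, hne⟩ := big_in_prod h hχ hθ
  by_cases he : ξ = θ
  · subst he
    obtain ⟨m, hm, -, hc⟩ := prod_self h hξ
    have hm0 : m χ ≠ 0 := fun hh => hne (by rw [hm, hh, Nat.cast_zero])
    rcases hc with ⟨-, hC⟩ | ⟨-, -, -, h5⟩
    · exact absurd (eq_zero_of_sum_eq_zero hC χ (Finset.mem_filter.mpr ⟨Finset.mem_univ _, hχ⟩)) hm0
    · exact Or.inl (h5 χ hχ hm0)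
  · obtain ⟨m, hm, -, -, hc⟩ := prod_three h hθ hξ he
    have hm0 : m χ ≠ 0 := fun hh => hne (by rw [hm, hh, Nat.cast_zero])
    rcases hc with ⟨-, h5, -⟩ | ⟨-, h6⟩
    · exact Or.inl (h5 χ hχ hm0)
    · exact Or.inr (h6 χ hχ hm0)

/-- Column orthogonality at `t` and `1`. -/
theorem column (h : Hyp t) :
    3 * (Finset.univ.filter (Three t)).card
      = 1 + ∑ χ ∈ Finset.univ.filter (Big t), deg χ * (deg χ - 4) := by
  have h1 := Char.sum_irr_degree_mul (G := G) t
  rw [if_neg h.1, sum_split h, one_apply, one_apply, mul_one] at h1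
  rw [Finset.sum_congr rfl (fun χ hχ => by
      rw [(Finset.mem_filter.mp hχ).2.1, (Finset.mem_filter.mp hχ).2.2] :
      ∀ χ ∈ Finset.univ.filter (Three t), (χ : G → ℂ) 1 * (χ : G → ℂ) t = 3 * (-1)),
    Finset.sum_congr rfl (fun χ hχ => by
      have := (Finset.mem_filter.mp hχ).2.1
      rw [(Finset.mem_filter.mp hχ).2.2, one_eq_deg, Nat.cast_mul,
        Nat.cast_sub (by omega : 4 ≤ deg χ), Nat.cast_ofNat] :
      ∀ χ ∈ Finset.univ.filter (Big t),
        (χ : G → ℂ) 1 * (χ : G → ℂ) t = ((deg χ * (deg χ - 4) : ℕ) : ℂ)),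
    Finset.sum_congr rfl (fun χ hχ => by rw [(Finset.mem_filter.mp hχ).2.2, mul_zero] :
      ∀ χ ∈ Finset.univ.filter (Zero t), (χ : G → ℂ) 1 * (χ : G → ℂ) t = 0),
    Finset.sum_const, Finset.sum_const_zero, ← Nat.cast_sum, nsmul_eq_mul] at h1
  apply Nat.cast_injective (R := ℂ)
  push_cast at h1 ⊢
  linear_combination -h1

theorem exists_three (h : Hyp t) : ∃ θ : IrrCharacter G, Three t θ := by
  have h1 := column h
  rcases Finset.eq_empty_or_nonempty (Finset.univ.filter (Three t)) with he | ⟨θ, hθ⟩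
  · rw [he] at h1
    simp only [Finset.card_empty, mul_zero] at h1
    omega
  · exact ⟨θ, (Finset.mem_filter.mp hθ).2⟩

/-- There is a real character of degree three and value `-1`. -/
theorem exists_real_three (h : Hyp t) : ∃ θ : IrrCharacter G, Three t θ ∧ cj θ = θ := by
  obtain ⟨θ, hθ⟩ := exists_three h
  obtain ⟨ψ, hψ, hψ5⟩ : ∃ ψ : IrrCharacter G, Big t ψ ∧ deg ψ = 5 := by
    by_contra hno
    push Not at hno
    have h1 := column h
    rw [Finset.sum_congr rfl (fun χ hχ => by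
      rw [(big_deg h (Finset.mem_filter.mp hχ).2 hθ).resolve_left
        (hno χ (Finset.mem_filter.mp hχ).2)] :
      ∀ χ ∈ Finset.univ.filter (Big t), deg χ * (deg χ - 4) = 12), Finset.sum_const,
      smul_eq_mul] at h1
    omega
  obtain ⟨ξ, hξ, hne⟩ := big_in_prod h hψ hθ
  by_cases he : ξ = θ
  · subst he
    obtain ⟨m, hm, -, hc⟩ := prod_self h hξ
    rcases hc with ⟨-, hC⟩ | ⟨h3, -, -, -⟩
    · exfalso
      exact hne (by rw [hm, eq_zero_of_sum_eq_zero hC ψ
        (Finset.mem_filter.mpr ⟨Finset.mem_univ _, hψ⟩), Nat.cast_zero])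
    · obtain ⟨x, hx, hx1, hxz⟩ := exists_of_sum_eq_one h3
      refine ⟨x, (Finset.mem_filter.mp hx).2, ?_⟩
      by_contra hne'
      have hreal : ∀ g, conj (conj ((ξ : G → ℂ) g) * (ξ : G → ℂ) g)
          = conj ((ξ : G → ℂ) g) * (ξ : G → ℂ) g := fun g => by
        rw [map_mul, Complex.conj_conj, mul_comm]
      have h2 := mult_cj hreal hm x
      rw [hxz (cj x) (Finset.mem_filter.mpr
        ⟨Finset.mem_univ _, three_cj (Finset.mem_filter.mp hx).2⟩) hne', hx1] at h2
      exact zero_ne_one h2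
  · obtain ⟨m, hm, -, -, hc⟩ := prod_three h hθ hξ he
    have hm0 : m ψ ≠ 0 := fun hh => hne (by rw [hm, hh, Nat.cast_zero])
    rcases hc with ⟨-, -, V, hV, hV4, hVt⟩ | ⟨-, h6⟩
    swap
    · exact absurd (h6 ψ hψ hm0) (by omega)
    -- the alternating square of `V`
    have hV1 : (V : G → ℂ) 1 = 4 := by rw [one_eq_deg, hV4]; norm_num
    set L : G → ℂ := fun g => ((V : G → ℂ) g ^ 2 - (V : G → ℂ) (g * g)) / 2 with hLdef
    have hid := deg_four_sq (perfect h) (Char.isCharacter_of_irr V.2) hV1 (L := L) (fun g => rfl)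
    have hL : IsCharacter G L := isCharacter_altSq (Char.isCharacter_of_irr V.2)
    have hL1 : L 1 = ((6 : ℕ) : ℂ) := by simp only [hLdef, mul_one, hV1]; norm_num
    have hLt : L t = ((-2 : ℤ) : ℂ) := by simp only [hLdef, hV.2, hVt]; norm_num
    obtain ⟨l, hl, hn, hv, hCP⟩ := decomp h hL hL1 hLt
    have hl0 : l one = 0 := by omega
    have h3 : cThree t l = 2 := by omega
    have hC : cBig t l = 0 := by omega
    have hR : rZero t l = 0 := by omega
    obtain ⟨W, hW, hW0⟩ := Finset.exists_ne_zero_of_sum_ne_zero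
      (show (∑ χ ∈ Finset.univ.filter (Three t), l χ) ≠ 0 from fun hh => by
        rw [show cThree t l = 0 from hh] at h3; omega)
    have hW3 := (Finset.mem_filter.mp hW).2
    refine ⟨W, hW3, ?_⟩
    by_contra hne'
    have hW' : cj W ∈ Finset.univ.filter (Three t) :=
      Finset.mem_filter.mpr ⟨Finset.mem_univ _, three_cj hW3⟩
    have hlW := mult_cj (fun g => (hid g).1) hl W
    have hsum := Finset.add_sum_erase _ l hW
    have hmem : cj W ∈ (Finset.univ.filter (Three t)).erase W := Finset.mem_erase.mpr ⟨hne', hW'⟩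
    have hsum2 := Finset.add_sum_erase _ l hmem
    rw [show (∑ χ ∈ Finset.univ.filter (Three t), l χ) = 2 from h3] at hsum
    have hW1 : l W = 1 := by omega
    have hrest : (∑ χ ∈ ((Finset.univ.filter (Three t)).erase W).erase (cj W), l χ) = 0 := by omega
    have hexp : ∀ g, L g = (W : G → ℂ) g + conj ((W : G → ℂ) g) := fun g => by
      rw [expand h hL hl g, hl0, Nat.cast_zero, zero_add, ← Finset.add_sum_erase _ _ hW,
        ← Finset.add_sum_erase _ _ hmem, hlW, hW1, Nat.cast_one, one_mul, one_mul, cj_apply,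
        Finset.sum_eq_zero (fun χ hχ => by
          rw [eq_zero_of_sum_eq_zero hrest χ hχ, Nat.cast_zero, zero_mul]),
        Finset.sum_eq_zero (fun χ hχ => by
          rw [eq_zero_of_sum_eq_zero hC χ hχ, Nat.cast_zero, zero_mul]),
        Finset.sum_eq_zero (fun χ hχ => by
          rcases mul_eq_zero.mp (eq_zero_of_sum_eq_zero hR χ hχ) with h1 | h1
          · rw [h1, Nat.cast_zero, zero_mul]
          · exact absurd h1 (deg_pos χ).ne')]
      ring
    have hkey : (fun g => conj ((V : G → ℂ) g) * (V : G → ℂ) g)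
        = (fun _ => (1 : ℂ)) + (L + fun g => conj ((W : G → ℂ) g) * (W : G → ℂ) g) := by
      funext g
      simp only [Pi.add_apply]
      have e1 := (hid g).2
      have e2 := deg_three_sq (perfect h) (Char.isCharacter_of_irr W.2) hW3.1 g
      have e3 := congrArg conj e2
      rw [map_sub, map_pow, map_mul, Complex.conj_conj, map_ofNat] at e3
      rw [hexp g, hexp (g * g)] at e1
      rw [hexp g]
      linear_combination (-1/2 : ℂ) * e1 + (1/2 : ℂ) * e2 + (1/2 : ℂ) * e3
    have h1 := congrArg (fun f : G → ℂ => classInner f (fun _ => (1 : ℂ))) hkey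
    simp only [Char.classInner_add_left, classInner_const_one, Char.classInner_irr_self V.2,
      Char.classInner_irr_self W.2, Char.classInner_irr_self Char.isIrrCharacter_const_one] at h1
    rw [show classInner L (fun _ => (1 : ℂ)) = classInner L ((one : IrrCharacter G) : G → ℂ) from rfl,
      hl one, hl0] at h1
    norm_num at h1

/-- The square identity of a real character of degree three. -/
theorem real_sq (h : Hyp t) {θ : IrrCharacter G} (hθ : Three t θ) (hr : cj θ = θ) (g : G) :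
    (θ : G → ℂ) (g * g) = (θ : G → ℂ) g ^ 2 - 2 * (θ : G → ℂ) g := by
  have h1 := deg_three_sq (perfect h) (Char.isCharacter_of_irr θ.2) hθ.1 g
  rw [conj_of_real hr] at h1
  linear_combination -h1

/-- For a real `θ` of degree three, `θ * θ = 1 + θ + φ`. -/
theorem exists_five (h : Hyp t) {θ : IrrCharacter G} (hθ : Three t θ) (hr : cj θ = θ) :
    ∃ φ : IrrCharacter G, Big t φ ∧ deg φ = 5 ∧
      ∀ g, (φ : G → ℂ) g = (θ : G → ℂ) g ^ 2 - (θ : G → ℂ) g - 1 := by
  set F : G → ℂ := fun g => conj ((θ : G → ℂ) g) * (θ : G → ℂ) g with hFdef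
  obtain ⟨m, hm, hm1, hc⟩ := prod_self h hθ
  set S : G → ℂ := fun g => ((θ : G → ℂ) g ^ 2 + (θ : G → ℂ) (g * g)) / 2 with hSdef
  have hS : IsCharacter G S := isCharacter_symSq (Char.isCharacter_of_irr θ.2)
  have hFS : F = (θ : G → ℂ) + S := by
    funext g
    simp only [hFdef, hSdef, Pi.add_apply, conj_of_real hr, real_sq h hθ hr g]
    ring
  obtain ⟨k, hk⟩ := Char.isCharacter_classInner_nat hS θ
  have hmθ : m θ ≠ 0 := by
    intro hh
    have h1 := hm θ
    rw [hh, show (fun g => conj ((θ : G → ℂ) g) * (θ : G → ℂ) g) = (θ : G → ℂ) + S from hFS,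
      Char.classInner_add_left, Char.classInner_irr_self θ.2, hk] at h1
    have h2 : ((1 + k : ℕ) : ℂ) = ((0 : ℕ) : ℂ) := by push_cast at h1 ⊢; exact h1
    have := Nat.cast_injective h2
    omega
  have hθmem : θ ∈ Finset.univ.filter (Three t) := Finset.mem_filter.mpr ⟨Finset.mem_univ _, hθ⟩
  rcases hc with ⟨h0, -⟩ | ⟨h3, hC, hR, h5⟩
  · exact absurd (eq_zero_of_sum_eq_zero h0 θ hθmem) hmθ
  obtain ⟨x, hx, hx1, hxz⟩ := exists_of_sum_eq_one h3
  have hxθ : x = θ := by
    by_contra hne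
    exact hmθ (hxz θ hθmem (Ne.symm hne))
  subst hxθ
  obtain ⟨φ, hφ, hφ1, hφz⟩ := exists_of_sum_eq_one hC
  have hφB := (Finset.mem_filter.mp hφ).2
  refine ⟨φ, hφB, h5 φ hφB (by omega), fun g => ?_⟩
  have h1 := expand h (isCharacter_conj_mul x x) hm g
  rw [hm1, Finset.sum_eq_single x (fun i hi hne => by rw [hxz i hi hne, Nat.cast_zero, zero_mul])
      (fun hh => absurd hx hh), hx1,
    Finset.sum_eq_single φ (fun i hi hne => by rw [hφz i hi hne, Nat.cast_zero, zero_mul])
      (fun hh => absurd hφ hh), hφ1,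
    Finset.sum_eq_zero (fun χ hχ => by
      rcases mul_eq_zero.mp (eq_zero_of_sum_eq_zero hR χ hχ) with h1 | h1
      · rw [h1, Nat.cast_zero, zero_mul]
      · exact absurd h1 (deg_pos χ).ne'), conj_of_real hr, Nat.cast_one] at h1
  linear_combination -h1

/-- `conj ξ * ξ` against a real `θ` and its `φ`. -/
theorem adj_data (h : Hyp t) {θ φ ξ : IrrCharacter G} (hθ : Three t θ) (hr : cj θ = θ)
    (hφ : Big t φ) (hφe : ∀ g, (φ : G → ℂ) g = (θ : G → ℂ) g ^ 2 - (θ : G → ℂ) g - 1)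
    (hξ : Three t ξ) (hne : ξ ≠ θ) :
    ∃ (x y : IrrCharacter G) (m : IrrCharacter G → ℕ),
      (∀ χ : IrrCharacter G,
        classInner (fun g => conj ((ξ : G → ℂ) g) * (ξ : G → ℂ) g) (χ : G → ℂ) = m χ) ∧
      Three t x ∧ cj x = x ∧ (∀ χ, Three t χ → m χ = if χ = x then 1 else 0) ∧
      (∀ χ, Big t χ → m χ = if χ = y then 1 else 0) ∧
      ((x = θ ∧ y ≠ φ) ∨ (x ≠ θ ∧ y = φ)) := by
  obtain ⟨k, hk, hnorm, -, -⟩ := prod_three h hθ hξ hne
  obtain ⟨m, hm, hm1, hc⟩ := prod_self h hξ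
  have hsum : m θ + m φ = 1 := by
    rw [classInner_mul_mul_self] at hnorm
    have e : (fun g => conj ((θ : G → ℂ) g) * conj (conj ((θ : G → ℂ) g)))
        = (fun _ => (1 : ℂ)) + ((θ : G → ℂ) + (φ : G → ℂ)) := by
      funext g
      simp only [Pi.add_apply, hφe, conj_of_real hr]
      ring
    rw [e, Char.classInner_add_left, Char.classInner_add_left] at hnorm
    have hh : ∀ χ : IrrCharacter G,
        classInner (χ : G → ℂ) (fun g => conj ((ξ : G → ℂ) g) * (ξ : G → ℂ) g) = m χ := fun χ => by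
      rw [← Char.classInner_conj, hm, map_natCast]
    rw [show (fun _ : G => (1 : ℂ)) = ((one : IrrCharacter G) : G → ℂ) from rfl, hh, hh, hh, hm1]
      at hnorm
    have h2 : ((1 + (m θ + m φ) : ℕ) : ℂ) = ((2 : ℕ) : ℂ) := by push_cast at hnorm ⊢; exact hnorm
    have := Nat.cast_injective h2
    omega
  have hθmem : θ ∈ Finset.univ.filter (Three t) := Finset.mem_filter.mpr ⟨Finset.mem_univ _, hθ⟩
  have hφmem : φ ∈ Finset.univ.filter (Big t) := Finset.mem_filter.mpr ⟨Finset.mem_univ _, hφ⟩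
  rcases hc with ⟨h0, hC⟩ | ⟨h3, hC, -, -⟩
  · rw [eq_zero_of_sum_eq_zero h0 θ hθmem, eq_zero_of_sum_eq_zero hC φ hφmem] at hsum
    omega
  obtain ⟨x, hx, hx1, hxz⟩ := exists_of_sum_eq_one h3
  obtain ⟨y, hy, hy1, hyz⟩ := exists_of_sum_eq_one hC
  have hx3 := (Finset.mem_filter.mp hx).2
  have hxr : cj x = x := by
    by_contra hne'
    have hreal : ∀ g, conj (conj ((ξ : G → ℂ) g) * (ξ : G → ℂ) g)
        = conj ((ξ : G → ℂ) g) * (ξ : G → ℂ) g := fun g => by
      rw [map_mul, Complex.conj_conj, mul_comm]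
    have h2 := mult_cj hreal hm x
    rw [hxz (cj x) (Finset.mem_filter.mpr ⟨Finset.mem_univ _, three_cj hx3⟩) hne', hx1] at h2
    exact zero_ne_one h2
  refine ⟨x, y, m, hm, hx3, hxr, fun χ hχ => ?_, fun χ hχ => ?_, ?_⟩
  · split_ifs with e
    · rw [e, hx1]
    · exact hxz χ (Finset.mem_filter.mpr ⟨Finset.mem_univ _, hχ⟩) e
  · split_ifs with e
    · rw [e, hy1]
    · exact hyz χ (Finset.mem_filter.mpr ⟨Finset.mem_univ _, hχ⟩) e
  · by_cases e : x = θ
    · refine Or.inl ⟨e, fun e2 => ?_⟩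
      rw [← e, ← e2, hx1, hy1] at hsum
      omega
    · refine Or.inr ⟨e, ?_⟩
      by_contra e2
      rw [hxz θ hθmem (Ne.symm e), hyz φ hφmem (Ne.symm e2)] at hsum
      omega

/-- Two real characters of degree three have the same `φ`. -/
theorem five_unique (h : Hyp t) {θ φ θ' φ' : IrrCharacter G} (hθ : Three t θ) (hr : cj θ = θ)
    (hφ : Big t φ) (hφe : ∀ g, (φ : G → ℂ) g = (θ : G → ℂ) g ^ 2 - (θ : G → ℂ) g - 1)
    (hθ' : Three t θ') (hr' : cj θ' = θ') (hφ' : Big t φ')
    (hφe' : ∀ g, (φ' : G → ℂ) g = (θ' : G → ℂ) g ^ 2 - (θ' : G → ℂ) g - 1) : φ' = φ := by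
  by_cases hne : θ' = θ
  · subst hne
    exact Subtype.ext (funext fun g => by rw [hφe, hφe'])
  obtain ⟨x, y, m, hm, -, -, hmx, hmy, hxy⟩ := adj_data h hθ hr hφ hφe hθ' hne
  have e : (fun g => conj ((θ' : G → ℂ) g) * (θ' : G → ℂ) g)
      = (fun _ => (1 : ℂ)) + ((θ' : G → ℂ) + (φ' : G → ℂ)) := by
    funext g
    simp only [Pi.add_apply, hφe', conj_of_real hr']
    ring
  have h1 : ∀ χ : IrrCharacter G, (χ : G → ℂ) ≠ (fun _ => (1 : ℂ)) →
      (m χ : ℂ) = classInner (θ' : G → ℂ) χ + classInner (φ' : G → ℂ) χ := by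
    intro χ hχ
    rw [← hm, e, Char.classInner_add_left, Char.classInner_add_left,
      Char.classInner_irr_ne Char.isIrrCharacter_const_one χ.2 (Ne.symm hχ), zero_add]
  have hx' : x = θ' := by
    have h2 := h1 θ' hθ'.ne_one
    rw [hmx θ' hθ', Char.classInner_irr_self θ'.2,
      Char.classInner_irr_ne φ'.2 θ'.2 (fun hh => hθ'.not_big (Subtype.ext hh ▸ hφ'))] at h2
    by_contra hh
    rw [if_neg (Ne.symm hh)] at h2
    norm_num at h2
  have hy' : y = φ' := by
    have h2 := h1 φ' hφ'.ne_one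
    rw [hmy φ' hφ', Char.classInner_irr_self φ'.2,
      Char.classInner_irr_ne θ'.2 φ'.2 (fun hh => hθ'.not_big ((Subtype.ext hh : θ' = φ').symm ▸ hφ'))]
      at h2
    by_contra hh
    rw [if_neg (Ne.symm hh)] at h2
    norm_num at h2
  rcases hxy with ⟨e1, -⟩ | ⟨-, e2⟩
  · exact absurd (hx'.symm.trans e1) hne
  · exact hy'.symm.trans e2

/-- Conjugation on the characters of degree three. -/
noncomputable def cjPerm (t : G) : Equiv.Perm {χ : IrrCharacter G // Three t χ} :=
  Function.Involutive.toPerm (fun χ => ⟨cj χ.1, three_cj χ.2⟩) fun χ => Subtype.ext (cj_cj χ.1)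

theorem cjPerm_sq : cjPerm t ^ 2 ^ 1 = 1 :=
  Equiv.ext fun χ => by
    rw [pow_one, pow_two, Equiv.Perm.mul_apply]
    exact Subtype.ext (cj_cj χ.1)

/-- A second real character of degree three. -/
theorem exists_second (h : Hyp t) {θ : IrrCharacter G} (hθ : Three t θ) (hr : cj θ = θ) :
    ∃ θ' : IrrCharacter G, Three t θ' ∧ cj θ' = θ' ∧ θ' ≠ θ := by
  by_contra hno
  push Not at hno
  obtain ⟨φ, hφ, hφ5, hφe⟩ := exists_five h hθ hr
  have honly : ∀ χ, Big t χ → deg χ = 5 → χ = φ := by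
    intro χ hχ hd
    obtain ⟨ξ, hξ, hne⟩ := big_in_prod h hχ hθ
    by_cases he : ξ = θ
    · subst he
      have e : (fun g => conj ((ξ : G → ℂ) g) * (ξ : G → ℂ) g)
          = (fun _ => (1 : ℂ)) + ((ξ : G → ℂ) + (φ : G → ℂ)) := by
        funext g
        simp only [Pi.add_apply, hφe, conj_of_real hr]
        ring
      by_contra hne'
      rw [e, Char.classInner_add_left, Char.classInner_add_left,
        Char.classInner_irr_ne Char.isIrrCharacter_const_one χ.2 (Ne.symm hχ.ne_one),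
        Char.classInner_irr_ne ξ.2 χ.2 (fun hh => hξ.not_big ((Subtype.ext hh : ξ = χ).symm ▸ hχ)),
        Char.classInner_irr_ne φ.2 χ.2 (fun hh => hne' (Subtype.ext hh.symm))] at hne
      simp at hne
    · exfalso
      obtain ⟨x, y, m, hm, hx3, hxr, hmx, -, -⟩ := adj_data h hθ hr hφ hφe hξ he
      have hxθ := hno x hx3 hxr
      obtain ⟨k, hk, -, -, hc⟩ := prod_three h hθ hξ he
      have hk1 : k ξ = 1 := by
        have h1 := hk ξ
        rw [classInner_mul_left, ← Char.classInner_conj] at h1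
        simp only [Complex.conj_conj] at h1
        rw [show (fun g => (θ : G → ℂ) g * (ξ : G → ℂ) g) = fun g => (ξ : G → ℂ) g * (θ : G → ℂ) g
          from funext fun g => mul_comm _ _, classInner_mul_left] at h1
        rw [← Char.classInner_conj, hm θ, hmx θ hθ, if_pos hxθ.symm] at h1
        simp at h1
        exact_mod_cast h1.symm
      have hkχ : k χ ≠ 0 := fun hh => hne (by rw [hk, hh, Nat.cast_zero])
      rcases hc with ⟨h0, -, -⟩ | ⟨-, h6⟩
      · rw [eq_zero_of_sum_eq_zero h0 ξ (Finset.mem_filter.mpr ⟨Finset.mem_univ _, hξ⟩)] at hk1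
        exact zero_ne_one hk1
      · have := h6 χ hχ hkχ
        omega
  have h1 := column h
  have hφmem : φ ∈ Finset.univ.filter (Big t) := Finset.mem_filter.mpr ⟨Finset.mem_univ _, hφ⟩
  rw [← Finset.add_sum_erase _ _ hφmem, hφ5, Finset.sum_congr rfl (fun χ hχ => by
    obtain ⟨hne, hχ'⟩ := Finset.mem_erase.mp hχ
    have hB := (Finset.mem_filter.mp hχ').2
    rw [(big_deg h hB hθ).resolve_left (fun h5 => hne (honly χ hB h5))] :
    ∀ χ ∈ (Finset.univ.filter (Big t)).erase φ, deg χ * (deg χ - 4) = 12), Finset.sum_const,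
    smul_eq_mul] at h1
  obtain ⟨⟨χ, hχ⟩, hχr, hχne⟩ := Equiv.Perm.exists_fixed_point_of_prime' (p := 2) (n := 1)
    (α := {χ : IrrCharacter G // Three t χ}) (hp := ⟨Nat.prime_two⟩)
    (by rw [Fintype.card_of_subtype (Finset.univ.filter (Three t)) (fun x => by simp)]; omega) (σ := cjPerm t) cjPerm_sq (a := ⟨θ, hθ⟩) (Subtype.ext hr)
  exact hχne (Subtype.ext (hno χ hχ (congrArg Subtype.val hχr)))

/-- All characters of degree three are real. -/
theorem three_real (h : Hyp t) {ξ : IrrCharacter G} (hξ : Three t ξ) : cj ξ = ξ := by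
  by_contra hne
  obtain ⟨θ, hθ, hr⟩ := exists_real_three h
  obtain ⟨φ, hφ, -, hφe⟩ := exists_five h hθ hr
  obtain ⟨x, y, m, hm, hx3, hxr, hmx, hmy, -⟩ := adj_data h hθ hr hφ hφe hξ (fun e => hne (e ▸ hr))
  obtain ⟨θ', hθ', hr', hne'⟩ := exists_second h hx3 hxr
  obtain ⟨φx, hφx, -, hφxe⟩ := exists_five h hx3 hxr
  obtain ⟨φ', hφ', -, hφ'e⟩ := exists_five h hθ' hr'
  have heq := five_unique h hx3 hxr hφx hφxe hθ' hr' hφ' hφ'e
  obtain ⟨x1, y1, m1, hm1, hx13, -, hmx1, hmy1, hd1⟩ :=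
    adj_data h hx3 hxr hφx hφxe hξ (fun e => hne (e ▸ hxr))
  obtain ⟨x2, y2, m2, hm2, hx23, -, hmx2, hmy2, hd2⟩ :=
    adj_data h hθ' hr' hφ' hφ'e hξ (fun e => hne (e ▸ hr'))
  have hmm1 : m1 = m := funext fun χ => by
    have := (hm1 χ).symm.trans (hm χ); exact_mod_cast this
  have hmm2 : m2 = m := funext fun χ => by
    have := (hm2 χ).symm.trans (hm χ); exact_mod_cast this
  subst hmm1 hmm2
  have hxx1 : x1 = x := by
    have h1 := hmx1 x hx3
    rw [hmx x hx3, if_pos rfl] at h1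
    by_contra hh
    rw [if_neg (Ne.symm hh)] at h1
    exact one_ne_zero h1
  have hxx2 : x2 = x := by
    have h1 := hmx2 x hx3
    rw [hmx x hx3, if_pos rfl] at h1
    by_contra hh
    rw [if_neg (Ne.symm hh)] at h1
    exact one_ne_zero h1
  rcases hd2 with ⟨e, -⟩ | ⟨-, e2⟩
  · exact hne' (e.symm.trans hxx2)
  rcases hd1 with ⟨-, e1⟩ | ⟨e, -⟩
  · apply e1
    have h1 := hmy1 φx hφx
    rw [hmy2 φx hφx, e2, heq, if_pos rfl] at h1
    by_contra hh
    rw [if_neg (Ne.symm hh)] at h1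
    exact one_ne_zero h1
  · exact e hxx1

/-- The configuration. -/
structure Config (t : G) where
  θ : IrrCharacter G
  θ' : IrrCharacter G
  φ : IrrCharacter G
  hθ : Three t θ
  hθ' : Three t θ'
  hne : θ' ≠ θ
  hr : cj θ = θ
  hr' : cj θ' = θ'
  hφ : Big t φ
  hφ5 : deg φ = 5
  hφe : ∀ g, (φ : G → ℂ) g = (θ : G → ℂ) g ^ 2 - (θ : G → ℂ) g - 1
  hφe' : ∀ g, (φ : G → ℂ) g = (θ' : G → ℂ) g ^ 2 - (θ' : G → ℂ) g - 1
  three_eq : Finset.univ.filter (Three t) = {θ, θ'}
  big_eq : Finset.univ.filter (Big t) = {φ}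

theorem config (h : Hyp t) : Nonempty (Config t) := by
  obtain ⟨θ, hθ, hr⟩ := exists_real_three h
  obtain ⟨θ', hθ', hr', hne⟩ := exists_second h hθ hr
  obtain ⟨φ, hφ, hφ5, hφe⟩ := exists_five h hθ hr
  have hall : ∀ ξ : IrrCharacter G, Three t ξ →
      ∀ g, (φ : G → ℂ) g = (ξ : G → ℂ) g ^ 2 - (ξ : G → ℂ) g - 1 := by
    intro ξ hξ g
    obtain ⟨ψ, hψ, -, hψe⟩ := exists_five h hξ (three_real h hξ)
    rw [← five_unique h hθ hr hφ hφe hξ (three_real h hξ) hψ hψe]
    exact hψe g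
  set L : G → ℂ := fun g => ((φ : G → ℂ) g ^ 2 - (φ : G → ℂ) (g * g)) / 2 with hLdef
  have hL : IsCharacter G L := isCharacter_altSq (Char.isCharacter_of_irr φ.2)
  have hLid : ∀ ξ : IrrCharacter G, Three t ξ →
      L = (fun g => (ξ : G → ℂ) g * (φ : G → ℂ) g) - (φ : G → ℂ) := by
    intro ξ hξ
    funext g
    simp only [hLdef, Pi.sub_apply]
    rw [hall ξ hξ g, hall ξ hξ (g * g), real_sq h hξ (three_real h hξ) g]
    ring
  have hmulL : ∀ ξ ψ : IrrCharacter G, Three t ξ →
      classInner (fun g => (ξ : G → ℂ) g * (φ : G → ℂ) g) (ψ : G → ℂ)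
        = classInner (φ : G → ℂ) (fun g => (ξ : G → ℂ) g * (ψ : G → ℂ) g) := by
    intro ξ ψ hξ
    rw [classInner_mul_left]
    congr 1
    funext g
    rw [conj_of_real (three_real h hξ)]
  have hLξ : ∀ ξ : IrrCharacter G, Three t ξ → classInner L (ξ : G → ℂ) = 1 := by
    intro ξ hξ
    rw [hLid ξ hξ, Char.classInner_sub_left,
      Char.classInner_irr_ne φ.2 ξ.2 (fun hh => hξ.not_big (Subtype.ext hh ▸ hφ)), sub_zero,
      hmulL ξ ξ hξ]
    have e : (fun g => (ξ : G → ℂ) g * (ξ : G → ℂ) g)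
        = (fun _ => (1 : ℂ)) + ((ξ : G → ℂ) + (φ : G → ℂ)) := by
      funext g
      simp only [Pi.add_apply, hall ξ hξ g]
      ring
    rw [e, Char.classInner_add_right, Char.classInner_add_right,
      Char.classInner_irr_ne φ.2 Char.isIrrCharacter_const_one hφ.ne_one,
      Char.classInner_irr_ne φ.2 ξ.2 (fun hh => hξ.not_big (Subtype.ext hh ▸ hφ)),
      Char.classInner_irr_self φ.2]
    ring
  have hφt : (φ : G → ℂ) t = 1 := by rw [hφe, hθ.2]; ring
  have hφtt : (φ : G → ℂ) (t * t) = 5 := by rw [hφe, three_sq h hθ]; norm_num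
  have hL1 : L 1 = ((10 : ℕ) : ℂ) := by
    simp only [hLdef, mul_one, one_eq_deg φ, hφ5]; norm_num
  have hLt : L t = ((-2 : ℤ) : ℂ) := by simp only [hLdef, hφt, hφtt]; norm_num
  obtain ⟨l, hl, hn, hv, hCP⟩ := decomp h hL hL1 hLt
  have hl0 : l one = 0 := by
    have h1 := hl one
    rw [hLid θ hθ, Char.classInner_sub_left,
      Char.classInner_irr_ne φ.2 one.2 hφ.ne_one, sub_zero, hmulL θ one hθ] at h1
    simp only [one_apply, mul_one] at h1
    rw [Char.classInner_irr_ne φ.2 θ.2 (fun hh => hθ.not_big (Subtype.ext hh ▸ hφ))] at h1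
    exact_mod_cast h1.symm
  have hl1 : ∀ ξ ∈ Finset.univ.filter (Three t), l ξ = 1 := fun ξ hξ => by
    have h1 := hl ξ
    rw [hLξ ξ (Finset.mem_filter.mp hξ).2] at h1
    exact_mod_cast h1.symm
  have hcard : (Finset.univ.filter (Three t)).card = cThree t l := by
    rw [cThree, Finset.sum_congr rfl hl1, Finset.sum_const, smul_eq_mul, mul_one]
  have hsub : {θ, θ'} ⊆ Finset.univ.filter (Three t) := by
    intro χ hχ
    rcases Finset.mem_insert.mp hχ with rfl | hh
    · exact Finset.mem_filter.mpr ⟨Finset.mem_univ _, hθ⟩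
    · rw [Finset.mem_singleton] at hh
      exact hh ▸ Finset.mem_filter.mpr ⟨Finset.mem_univ _, hθ'⟩
  have hc2 : ({θ, θ'} : Finset (IrrCharacter G)).card = 2 := Finset.card_pair hne.symm
  have hb2 := Finset.card_le_card hsub
  have hthree : Finset.univ.filter (Three t) = {θ, θ'} := by
    refine (Finset.eq_of_subset_of_card_le hsub ?_).symm
    have hCP0 : cBig t l = 0 → pBig t l = 0 := fun h0 => Finset.sum_eq_zero fun χ hχ => by
      rw [eq_zero_of_sum_eq_zero h0 χ hχ, zero_mul]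
    omega
  refine ⟨⟨θ, θ', φ, hθ, hθ', hne, hr, hr', hφ, hφ5, hφe, hall θ' hθ', hthree, ?_⟩⟩
  refine Finset.ext fun χ => ?_
  simp only [Finset.mem_filter, Finset.mem_univ, true_and, Finset.mem_singleton]
  refine ⟨fun hχ => ?_, fun hh => hh ▸ hφ⟩
  obtain ⟨ξ, hξ, hne2⟩ := big_in_prod h hχ hθ
  have hξmem : ξ ∈ Finset.univ.filter (Three t) := Finset.mem_filter.mpr ⟨Finset.mem_univ _, hξ⟩
  rw [hthree, Finset.mem_insert, Finset.mem_singleton] at hξmem
  by_contra hne3
  rcases hξmem with e | e <;> subst e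
  · have e2 : (fun g => conj ((ξ : G → ℂ) g) * (ξ : G → ℂ) g)
        = (fun _ => (1 : ℂ)) + ((ξ : G → ℂ) + (φ : G → ℂ)) := by
      funext g
      simp only [Pi.add_apply, hφe, conj_of_real hr]
      ring
    rw [e2, Char.classInner_add_left, Char.classInner_add_left,
      Char.classInner_irr_ne Char.isIrrCharacter_const_one χ.2 (Ne.symm hχ.ne_one),
      Char.classInner_irr_ne ξ.2 χ.2 (fun hh => hξ.not_big ((Subtype.ext hh : ξ = χ).symm ▸ hχ)),
      Char.classInner_irr_ne φ.2 χ.2 (fun hh => hne3 (Subtype.ext hh.symm))] at hne2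
    simp at hne2
  · obtain ⟨m, hm, -, hC, -⟩ := prod_three h hθ hξ hne
    have hmφ : m φ = 1 := by
      have h1 := hm φ
      rw [show (fun g => conj ((θ : G → ℂ) g) * (ξ : G → ℂ) g)
        = fun g => (θ : G → ℂ) g * (ξ : G → ℂ) g from funext fun g => by rw [conj_of_real hr],
        classInner_mul_left] at h1
      simp only [conj_of_real hr] at h1
      rw [← Char.classInner_conj,
        show (fun g => (θ : G → ℂ) g * (φ : G → ℂ) g) = L + (φ : G → ℂ) by
          rw [hLid θ hθ]; simp, Char.classInner_add_left, hLξ ξ hξ,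
        Char.classInner_irr_ne φ.2 ξ.2 (fun hh => hξ.not_big (Subtype.ext hh ▸ hφ))] at h1
      simp at h1
      exact_mod_cast h1.symm
    obtain ⟨a, ha, -, haz⟩ := exists_of_sum_eq_one hC
    have hχa : χ = a := by
      by_contra hh
      exact hne2 (by rw [hm, haz χ (Finset.mem_filter.mpr ⟨Finset.mem_univ _, hχ⟩) hh, Nat.cast_zero])
    have hφa : φ = a := by
      by_contra hh
      rw [haz φ (Finset.mem_filter.mpr ⟨Finset.mem_univ _, hφ⟩) hh] at hmφ
      exact zero_ne_one hmφ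
    exact hne3 (hχa.trans hφa.symm)

end Cfsg.Agent.ConstFour
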