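import Cfsg.Agent.ConstFour.Basic

/-!
# An element `u` with `χ 1 - χ u = 4` or `χ u = 0`: constituents

Non-principal irreducible characters are of three kinds: degree three with value `-1`, degree
`d ≥ 5` with value `d - 4`, and value zero.  The group is perfect.
-/

set_option autoImplicit false
set_option linter.unusedSectionVars false

open scoped ComplexConjugate Classical
open Cfsg

namespace Cfsg.Agent.ConstFour

universe u

variable {G : Type u} [Group G]

/-- The hypothesis. -/
def Hyp (t : G) : Prop :=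
  t ≠ 1 ∧ ∀ χ : IrrCharacter G, (χ : G → ℂ) ≠ (fun _ => (1 : ℂ)) →
    ((χ : G → ℂ) 1 - (χ : G → ℂ) t = 4 ∨ (χ : G → ℂ) t = 0)

/-- Degree three with value `-1`. -/
def Three (t : G) (χ : IrrCharacter G) : Prop := (χ : G → ℂ) 1 = 3 ∧ (χ : G → ℂ) t = -1

/-- The degree as a natural number. -/
noncomputable def deg (χ : IrrCharacter G) : ℕ := Classical.choose (Char.irr_one_pos χ.2)

theorem deg_pos (χ : IrrCharacter G) : 0 < deg χ :=
  (Classical.choose_spec (Char.irr_one_pos χ.2)).1

theorem one_eq_deg (χ : IrrCharacter G) : (χ : G → ℂ) 1 = deg χ :=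
  (Classical.choose_spec (Char.irr_one_pos χ.2)).2

theorem deg_eq {χ : IrrCharacter G} {n : ℕ} (h : (χ : G → ℂ) 1 = n) : deg χ = n := by
  rw [one_eq_deg] at h; exact_mod_cast h

/-- Degree `d ≥ 5` with value `d - 4`. -/
def Big (t : G) (χ : IrrCharacter G) : Prop := 5 ≤ deg χ ∧ (χ : G → ℂ) t = (deg χ : ℂ) - 4

/-- Non-principal with value zero. -/
def Zero (t : G) (χ : IrrCharacter G) : Prop :=
  (χ : G → ℂ) ≠ (fun _ => (1 : ℂ)) ∧ (χ : G → ℂ) t = 0

variable [Fintype G] {t : G}

theorem perfect (h : Hyp t) : commutator G = ⊤ := by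
  have hlin : ∀ χ : IrrCharacter G, (χ : G → ℂ) 1 = 1 → (χ : G → ℂ) = fun _ => (1 : ℂ) := by
    intro χ h1
    by_contra hne
    obtain ⟨f, hf⟩ := Char.exists_monoidHom_of_degree_one (Char.isCharacter_of_irr χ.2) h1
    have hft : (χ : G → ℂ) t = (f t : ℂ) := by rw [hf]
    rcases h.2 χ hne with h4 | h0
    · rw [h1, hft] at h4
      have hn : ‖((f t : ℂˣ) : ℂ)‖ = 1 := by
        refine Complex.norm_eq_one_of_pow_eq_one ?_ (orderOf_pos t).ne'
        rw [← Units.val_pow_eq_pow_val, ← map_pow, pow_orderOf_eq_one, map_one, Units.val_one]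
      rw [show ((f t : ℂˣ) : ℂ) = -3 by linear_combination -h4] at hn
      norm_num at hn
    · rw [hft] at h0
      exact (f t).ne_zero h0
  have hsub : Subsingleton (G →* ℂˣ) := ⟨fun f g => by
    have hf := hlin ⟨_, Char.isIrrCharacter_monoidHom f⟩ (by simp)
    have hg := hlin ⟨_, Char.isIrrCharacter_monoidHom g⟩ (by simp)
    exact MonoidHom.ext fun x => Units.ext ((congrFun hf x).trans (congrFun hg x).symm)⟩
  have hcard : Nat.card (G →* ℂˣ) = 1 := Nat.card_eq_one_iff_unique.mpr ⟨hsub, ⟨1⟩⟩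
  rw [← Subgroup.index_eq_one, ← Char.card_monoidHom_complex]
  exact hcard

theorem Three.ne_one {χ : IrrCharacter G} (hχ : Three t χ) :
    (χ : G → ℂ) ≠ (fun _ => (1 : ℂ)) := fun h1 => by
  have := hχ.1
  rw [h1] at this
  norm_num at this

theorem Big.ne_one {χ : IrrCharacter G} (hχ : Big t χ) :
    (χ : G → ℂ) ≠ (fun _ => (1 : ℂ)) := fun h1 => by
  have := deg_eq (χ := χ) (n := 1) (by simp [h1])
  have := hχ.1
  omega

theorem Three.not_big {χ : IrrCharacter G} (hχ : Three t χ) : ¬ Big t χ := fun h => by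
  have := deg_eq (χ := χ) (n := 3) (by simpa using hχ.1)
  have := h.1
  omega

theorem Three.not_zero {χ : IrrCharacter G} (hχ : Three t χ) : ¬ Zero t χ := fun h => by
  have := h.2
  rw [hχ.2] at this
  norm_num at this

theorem Big.not_zero {χ : IrrCharacter G} (hχ : Big t χ) : ¬ Zero t χ := fun h => by
  have h2 := h.2
  rw [hχ.2, sub_eq_zero] at h2
  have : deg χ = 4 := by exact_mod_cast h2
  have := hχ.1
  omega

/-- A character of degree three and value `-1` is trivial on the square of `t`. -/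
theorem three_sq (h : Hyp t) {χ : IrrCharacter G} (hχ : Three t χ) :
    (χ : G → ℂ) (t * t) = 3 := by
  have h1 := deg_three_sq (perfect h) (Char.isCharacter_of_irr χ.2) hχ.1 t
  rw [hχ.2] at h1
  simp only [map_neg, map_one] at h1
  linear_combination -h1

theorem cases_irr (h : Hyp t) (χ : IrrCharacter G) :
    (χ : G → ℂ) = (fun _ => (1 : ℂ)) ∨ Three t χ ∨ Big t χ ∨ Zero t χ := by
  by_cases hne : (χ : G → ℂ) = (fun _ => (1 : ℂ))
  · exact Or.inl hne
  by_cases h0 : (χ : G → ℂ) t = 0
  · exact Or.inr (Or.inr (Or.inr ⟨hne, h0⟩))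
  have h4 := (h.2 χ hne).resolve_right h0
  rw [one_eq_deg] at h4
  have hv : (χ : G → ℂ) t = (deg χ : ℂ) - 4 := by linear_combination -h4
  rcases Nat.lt_trichotomy (deg χ) 4 with h5 | h5 | h5
  · have := deg_pos χ
    interval_cases hd : deg χ
    · exfalso
      obtain ⟨f, hf⟩ := Char.exists_monoidHom_of_degree_one (Char.isCharacter_of_irr χ.2)
        (by rw [one_eq_deg, hd]; norm_num)
      apply hne
      have : f = 1 := MonoidHom.ext fun x => MonoidHom.mem_ker.mp
        (Abelianization.commutator_subset_ker f (by rw [perfect h]; trivial))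
      funext x
      rw [hf, this]
      simp
    · exfalso
      have h1 : (χ : G → ℂ) 1 = 2 := by rw [one_eq_deg, hd]; norm_num
      have h2 : (χ : G → ℂ) t = -2 := by rw [hv]; norm_num
      let F : G → ℂ := fun g => conj ((χ : G → ℂ) g) * (χ : G → ℂ) g
      have hF : IsCharacter G F :=
        Char.isCharacter_mul (Char.isCharacter_conjFun (Char.isCharacter_of_irr χ.2))
          (Char.isCharacter_of_irr χ.2)
      obtain ⟨m, hm, hmc⟩ := Char.isCharacter_exists_coeff hF
      have h1F : classInner F (fun _ => (1 : ℂ)) = 1 := by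
        rw [classInner_const_one, Char.classInner_irr_self χ.2]
      by_cases hex : ∃ ξ : IrrCharacter G, (ξ : G → ℂ) ≠ (fun _ => (1 : ℂ)) ∧ m ξ ≠ 0
      · obtain ⟨ξ, hξ1, hξm⟩ := hex
        have hk := irr_eq_deg_of_constituent hF (g := t) (by simp [F, h1, h2, map_ofNat]) ξ
          (by rw [hmc]; exact_mod_cast hξm)
        rcases h.2 ξ hξ1 with h4' | h0'
        · rw [hk, sub_self] at h4'; norm_num at h4'
        · rw [hk] at h0'; exact Char.irr_one_ne_zero ξ.2 h0'
      · push Not at hex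
        let e : IrrCharacter G := ⟨_, Char.isIrrCharacter_const_one⟩
        have hme : m e = 1 := by
          have := hmc e
          rw [show (e : G → ℂ) = fun _ => (1 : ℂ) from rfl, h1F] at this
          exact_mod_cast this.symm
        have := congrFun hm 1
        rw [Finset.sum_apply, Finset.sum_eq_single e
          (fun ξ _ hne' => by rw [Pi.smul_apply, hex ξ (fun hh => hne' (Subtype.ext hh)), zero_smul])
          (fun hh => absurd (Finset.mem_univ e) hh), hme, one_smul] at this
        simp [F, h1, e, map_ofNat] at this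
        all_goals norm_num at this
    · refine Or.inr (Or.inl ⟨by rw [one_eq_deg, hd]; norm_num, ?_⟩)
      rw [hv]; norm_num
  · exfalso
    apply h0
    rw [hv, h5]; norm_num
  · exact Or.inr (Or.inr (Or.inl ⟨h5, hv⟩))

/-- The principal character. -/
noncomputable def one : IrrCharacter G := ⟨_, Char.isIrrCharacter_const_one⟩

theorem one_apply (g : G) : ((one : IrrCharacter G) : G → ℂ) g = 1 := rfl

theorem sum_split (h : Hyp t) {M : Type*} [AddCommMonoid M] (f : IrrCharacter G → M) :
    ∑ χ, f χ = f one + (∑ χ ∈ Finset.univ.filter (Three t), f χ)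
      + (∑ χ ∈ Finset.univ.filter (Big t), f χ) + ∑ χ ∈ Finset.univ.filter (Zero t), f χ := by
  have hone : f one = ∑ χ : IrrCharacter G, if χ = one then f χ else 0 := by simp
  rw [hone, Finset.sum_filter, Finset.sum_filter, Finset.sum_filter, ← Finset.sum_add_distrib,
    ← Finset.sum_add_distrib, ← Finset.sum_add_distrib]
  refine Finset.sum_congr rfl fun χ _ => ?_
  rcases cases_irr h χ with h1 | h3 | hB | hZ
  · have e : χ = one := Subtype.ext h1
    have n3 : ¬ Three t χ := fun hh => hh.ne_one h1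
    have nB : ¬ Big t χ := fun hh => hh.ne_one h1
    have nZ : ¬ Zero t χ := fun hh => hh.1 h1
    rw [if_pos e, if_neg n3, if_neg nB, if_neg nZ]
    simp
  · have e : χ ≠ one := fun hh => h3.ne_one (congrArg Subtype.val hh)
    rw [if_neg e, if_pos h3, if_neg h3.not_big, if_neg h3.not_zero]
    simp
  · have e : χ ≠ one := fun hh => hB.ne_one (congrArg Subtype.val hh)
    rw [if_neg e, if_neg (fun hh : Three t χ => hh.not_big hB), if_pos hB, if_neg hB.not_zero]
    simp
  · have e : χ ≠ one := fun hh => hZ.1 (congrArg Subtype.val hh)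
    rw [if_neg e, if_neg (fun hh : Three t χ => hh.not_zero hZ),
      if_neg (fun hh : Big t χ => hh.not_zero hZ), if_pos hZ]
    simp

/-- Number of constituents of degree three. -/
noncomputable def cThree (t : G) (m : IrrCharacter G → ℕ) : ℕ :=
  ∑ χ ∈ Finset.univ.filter (Three t), m χ

/-- Number of big constituents. -/
noncomputable def cBig (t : G) (m : IrrCharacter G → ℕ) : ℕ :=
  ∑ χ ∈ Finset.univ.filter (Big t), m χ

/-- Total value of the big constituents. -/
noncomputable def pBig (t : G) (m : IrrCharacter G → ℕ) : ℕ :=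
  ∑ χ ∈ Finset.univ.filter (Big t), m χ * (deg χ - 4)

/-- Total degree of the constituents with value zero. -/
noncomputable def rZero (t : G) (m : IrrCharacter G → ℕ) : ℕ :=
  ∑ χ ∈ Finset.univ.filter (Zero t), m χ * deg χ

/-- The multiplicities of a character, with the resulting equations. -/
theorem decomp (h : Hyp t) {F : G → ℂ} (hF : IsCharacter G F) {n : ℕ} {v : ℤ}
    (hn : F 1 = n) (hv : F t = v) :
    ∃ m : IrrCharacter G → ℕ, (∀ χ : IrrCharacter G, classInner F (χ : G → ℂ) = m χ) ∧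
      n = m one + 3 * cThree t m + pBig t m + 4 * cBig t m + rZero t m ∧
      v = (m one : ℤ) - cThree t m + pBig t m ∧ cBig t m ≤ pBig t m := by
  obtain ⟨m, hm, hmc⟩ := Char.isCharacter_exists_coeff hF
  have h0 : ∀ x, F x = ∑ χ : IrrCharacter G, (m χ : ℂ) * (χ : G → ℂ) x := fun x => by
    conv_lhs => rw [hm]
    simp [Finset.sum_apply]
  refine ⟨m, hmc, ?_, ?_, ?_⟩
  · have h1 := h0 1
    rw [hn, sum_split h, one_apply, mul_one] at h1
    have h2 : (n : ℂ) = ((m one + 3 * cThree t m + pBig t m + 4 * cBig t m + rZero t m : ℕ) : ℂ) := by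
      rw [h1]
      simp only [cThree, pBig, cBig, rZero, Nat.cast_add, Nat.cast_mul, Nat.cast_sum, Finset.mul_sum]
      rw [Finset.sum_congr rfl (fun χ hχ => by
        rw [(Finset.mem_filter.mp hχ).2.1, mul_comm, Nat.cast_ofNat] :
        ∀ χ ∈ Finset.univ.filter (Three t), (m χ : ℂ) * (χ : G → ℂ) 1 = ((3 : ℕ) : ℂ) * m χ)]
      rw [Finset.sum_congr rfl (fun χ hχ => by
        have := (Finset.mem_filter.mp hχ).2.1
        rw [one_eq_deg, Nat.cast_sub (by omega : 4 ≤ deg χ)]
        push_cast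
        ring :
        ∀ χ ∈ Finset.univ.filter (Big t),
          (m χ : ℂ) * (χ : G → ℂ) 1 = (m χ : ℂ) * ((deg χ - 4 : ℕ) : ℂ) + ((4 : ℕ) : ℂ) * m χ),
        Finset.sum_add_distrib]
      simp only [one_eq_deg]
      ring
    exact_mod_cast h2
  · have h1 := h0 t
    rw [hv, sum_split h, one_apply, mul_one] at h1
    have h2 : (v : ℂ) = (((m one : ℤ) - cThree t m + pBig t m : ℤ) : ℂ) := by
      rw [h1]
      simp only [cThree, pBig, Int.cast_add, Int.cast_sub, Int.cast_natCast, Nat.cast_sum,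
        Nat.cast_mul, Int.cast_sum, Int.cast_mul]
      rw [Finset.sum_congr rfl (fun χ hχ => by
        rw [(Finset.mem_filter.mp hχ).2.2, mul_neg, mul_one] :
        ∀ χ ∈ Finset.univ.filter (Three t), (m χ : ℂ) * (χ : G → ℂ) t = -(m χ : ℂ))]
      rw [Finset.sum_congr rfl (fun χ hχ => by
        have := (Finset.mem_filter.mp hχ).2.1
        rw [(Finset.mem_filter.mp hχ).2.2, Nat.cast_sub (by omega : 4 ≤ deg χ), Nat.cast_ofNat] :
        ∀ χ ∈ Finset.univ.filter (Big t),
          (m χ : ℂ) * (χ : G → ℂ) t = (m χ : ℂ) * ((deg χ - 4 : ℕ) : ℂ))]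
      rw [Finset.sum_congr rfl (fun χ hχ => by
        rw [(Finset.mem_filter.mp hχ).2.2, mul_zero] :
        ∀ χ ∈ Finset.univ.filter (Zero t), (m χ : ℂ) * (χ : G → ℂ) t = 0),
        Finset.sum_const_zero, Finset.sum_neg_distrib]
      ring
    exact_mod_cast h2
  · refine Finset.sum_le_sum fun χ hχ => ?_
    have := (Finset.mem_filter.mp hχ).2.1
    exact Nat.le_mul_of_pos_right _ (by omega)

/-- A sum of natural numbers equal to one has one nonzero term. -/
theorem exists_of_sum_eq_one {ι : Type*} {s : Finset ι} {m : ι → ℕ} (h : ∑ i ∈ s, m i = 1) :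
    ∃ a ∈ s, m a = 1 ∧ ∀ i ∈ s, i ≠ a → m i = 0 := by
  obtain ⟨a, ha, ha0⟩ := Finset.exists_ne_zero_of_sum_ne_zero (s := s) (f := m) (by omega)
  have h1 := Finset.add_sum_erase s m ha
  refine ⟨a, ha, by omega, fun i hi hia => ?_⟩
  have h2 : m i ≤ ∑ j ∈ s.erase a, m j :=
    Finset.single_le_sum (f := m) (fun j _ => Nat.zero_le _) (Finset.mem_erase.mpr ⟨hia, hi⟩)
  omega

theorem eq_zero_of_sum_eq_zero {ι : Type*} {s : Finset ι} {m : ι → ℕ} (h : ∑ i ∈ s, m i = 0) :
    ∀ i ∈ s, m i = 0 := fun _ hi => Finset.sum_eq_zero_iff.mp h _ hi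

theorem sum_sq_of_sum_eq_one {ι : Type*} {s : Finset ι} {m : ι → ℕ} (h : ∑ i ∈ s, m i = 1) :
    ∑ i ∈ s, m i * m i = 1 := by
  obtain ⟨a, ha, ha1, hz⟩ := exists_of_sum_eq_one h
  rw [Finset.sum_eq_single a (fun i hi hne => by rw [hz i hi hne, zero_mul]) (fun hh => absurd ha hh),
    ha1]

/-- The norm from the multiplicities. -/
theorem classInner_self_eq (h : Hyp t) {F : G → ℂ} (hF : IsCharacter G F)
    {m : IrrCharacter G → ℕ} (hm : ∀ χ : IrrCharacter G, classInner F (χ : G → ℂ) = m χ) :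
    classInner F F = ((m one * m one + (∑ χ ∈ Finset.univ.filter (Three t), m χ * m χ)
      + (∑ χ ∈ Finset.univ.filter (Big t), m χ * m χ)
      + ∑ χ ∈ Finset.univ.filter (Zero t), m χ * m χ : ℕ) : ℂ) := by
  rw [← (sum_split h (fun χ => m χ * m χ) :
    ∑ χ, m χ * m χ = _), Char.classInner_eq_sum_mul_conj (Char.isCharacter_isClassFunction hF)]
  push_cast
  refine Finset.sum_congr rfl fun χ _ => ?_
  rw [hm, map_natCast]

theorem isCharacter_conj_mul (θ ξ : IrrCharacter G) :
    IsCharacter G (fun g => conj ((θ : G → ℂ) g) * (ξ : G → ℂ) g) :=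
  Char.isCharacter_mul (Char.isCharacter_conjFun (Char.isCharacter_of_irr θ.2))
    (Char.isCharacter_of_irr ξ.2)

/-- A zero constituent of a character trivial on `t * t` has degree at least four. -/
theorem zero_deg (h : Hyp t) {F : G → ℂ} (hF : IsCharacter G F) (hFt : F (t * t) = F 1)
    (χ : IrrCharacter G) (hχ : Zero t χ) (hc : classInner F (χ : G → ℂ) ≠ 0) : 4 ≤ deg χ := by
  by_contra h4
  have hk := irr_eq_deg_of_constituent hF hFt χ hc
  have := deg_pos χ
  interval_cases hd : deg χ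
  · obtain ⟨f, hf⟩ := Char.exists_monoidHom_of_degree_one (Char.isCharacter_of_irr χ.2)
      (by rw [one_eq_deg, hd]; norm_num)
    have h0 := hχ.2
    rw [hf] at h0
    exact (f t).ne_zero h0
  · have h1 : (χ : G → ℂ) 1 = 2 := by rw [one_eq_deg, hd]; norm_num
    have := deg_two_sq (perfect h) (Char.isCharacter_of_irr χ.2) h1 t
    rw [hχ.2, hk, h1] at this
    norm_num at this
  · have h1 : (χ : G → ℂ) 1 = 3 := by rw [one_eq_deg, hd]; norm_num
    have := deg_three_sq (perfect h) (Char.isCharacter_of_irr χ.2) h1 t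
    rw [hχ.2, hk, h1] at this
    norm_num at this

/-- The product of two different characters of degree three: five plus four, or three plus six. -/
theorem prod_three (h : Hyp t) {θ ξ : IrrCharacter G} (hθ : Three t θ) (hξ : Three t ξ)
    (hne : ξ ≠ θ) :
    ∃ m : IrrCharacter G → ℕ,
      (∀ χ : IrrCharacter G,
        classInner (fun g => conj ((θ : G → ℂ) g) * (ξ : G → ℂ) g) (χ : G → ℂ) = m χ) ∧
      classInner (fun g => conj ((θ : G → ℂ) g) * (ξ : G → ℂ) g)
        (fun g => conj ((θ : G → ℂ) g) * (ξ : G → ℂ) g) = 2 ∧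
      cBig t m = 1 ∧
      ((cThree t m = 0 ∧ (∀ χ, Big t χ → m χ ≠ 0 → deg χ = 5) ∧
          ∃ V : IrrCharacter G, Zero t V ∧ deg V = 4 ∧ (V : G → ℂ) (t * t) = 4) ∨
        (cThree t m = 1 ∧ ∀ χ, Big t χ → m χ ≠ 0 → deg χ = 6)) := by
  set F : G → ℂ := fun g => conj ((θ : G → ℂ) g) * (ξ : G → ℂ) g with hFdef
  have hF : IsCharacter G F := isCharacter_conj_mul θ ξ
  have hF1 : F 1 = ((9 : ℕ) : ℂ) := by simp only [hFdef, hθ.1, hξ.1, map_ofNat]; norm_num
  have hFt : F t = ((1 : ℤ) : ℂ) := by simp [hFdef, hθ.2, hξ.2]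
  have hFt2 : F (t * t) = F 1 := by
    simp only [hFdef, hθ.1, hξ.1, three_sq h hθ, three_sq h hξ]
  obtain ⟨m, hm, hn, hv, hCP⟩ := decomp h hF hF1 hFt
  have hm1 : m one = 0 := by
    have h1 := hm one
    rw [show ((one : IrrCharacter G) : G → ℂ) = fun _ => (1 : ℂ) from rfl, hFdef,
      classInner_const_one,
      Char.classInner_irr_ne ξ.2 θ.2 (fun hh => hne (Subtype.ext hh))] at h1
    exact_mod_cast h1.symm
  rw [hm1] at hn hv
  have hP : pBig t m = 1 + cThree t m := by omega
  have hC1 : 1 ≤ cBig t m := by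
    by_contra hC
    have hC0 := eq_zero_of_sum_eq_zero (show cBig t m = 0 by omega)
    have : pBig t m = 0 := Finset.sum_eq_zero fun χ hχ => by rw [hC0 χ hχ, zero_mul]
    omega
  have hC : cBig t m = 1 := by omega
  obtain ⟨B, hB, hB1, hBz⟩ := exists_of_sum_eq_one hC
  have hPB : pBig t m = deg B - 4 := by
    rw [pBig, Finset.sum_eq_single B (fun i hi hne' => by rw [hBz i hi hne', zero_mul])
      (fun hh => absurd hB hh), hB1, one_mul]
  have hBd := (Finset.mem_filter.mp hB).2.1
  have huniqB : ∀ χ, Big t χ → m χ ≠ 0 → χ = B := fun χ hχ hm0 => by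
    by_contra hne'
    exact hm0 (hBz χ (Finset.mem_filter.mpr ⟨Finset.mem_univ _, hχ⟩) hne')
  refine ⟨m, hm, ?_, hC, ?_⟩
  · rw [classInner_self_eq h hF hm, hm1, sum_sq_of_sum_eq_one hC]
    rcases Nat.eq_zero_or_pos (cThree t m) with h0 | h0
    · have hR : rZero t m = 4 := by omega
      rw [Finset.sum_eq_zero (s := Finset.univ.filter (Three t)) fun χ hχ => by
        rw [eq_zero_of_sum_eq_zero h0 χ hχ, zero_mul]]
      have hcz : ∑ χ ∈ Finset.univ.filter (Zero t), m χ = 1 := by
        have hle : 4 * ∑ χ ∈ Finset.univ.filter (Zero t), m χ ≤ rZero t m := by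
          rw [Finset.mul_sum]
          refine Finset.sum_le_sum fun χ hχ => ?_
          rcases Nat.eq_zero_or_pos (m χ) with h1 | h1
          · simp [h1]
          · rw [mul_comm]
            exact Nat.mul_le_mul_left _ (zero_deg h hF hFt2 χ (Finset.mem_filter.mp hχ).2
              (by rw [hm]; exact_mod_cast h1.ne'))
        rcases Nat.eq_zero_or_pos (∑ χ ∈ Finset.univ.filter (Zero t), m χ) with h1 | h1
        · have : rZero t m = 0 := Finset.sum_eq_zero fun χ hχ => by
            rw [eq_zero_of_sum_eq_zero h1 χ hχ, zero_mul]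
          omega
        · omega
      rw [sum_sq_of_sum_eq_one hcz]
      norm_num
    · have h3 : cThree t m = 1 := by omega
      have hR : rZero t m = 0 := by omega
      rw [sum_sq_of_sum_eq_one h3, Finset.sum_eq_zero (s := Finset.univ.filter (Zero t)) fun χ hχ => by
        have := eq_zero_of_sum_eq_zero hR χ hχ
        rcases mul_eq_zero.mp this with h1 | h1
        · rw [h1, zero_mul]
        · have := deg_pos χ; omega]
      norm_num
  · rcases Nat.eq_zero_or_pos (cThree t m) with h0 | h0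
    · refine Or.inl ⟨h0, fun χ hχ hm0 => by rw [huniqB χ hχ hm0]; omega, ?_⟩
      have hR : rZero t m = 4 := by omega
      obtain ⟨V, hV, hV0⟩ := Finset.exists_ne_zero_of_sum_ne_zero
        (show (∑ χ ∈ Finset.univ.filter (Zero t), m χ * deg χ) ≠ 0 from fun hh => by
          rw [rZero, hh] at hR; exact absurd hR (by norm_num))
      have hVm : m V ≠ 0 := fun hh => hV0 (by rw [hh, zero_mul])
      have hc : classInner F (V : G → ℂ) ≠ 0 := by rw [hm]; exact_mod_cast hVm
      have h4 := zero_deg h hF hFt2 V (Finset.mem_filter.mp hV).2 hc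
      have hle : m V * deg V ≤ 4 := hR ▸ Finset.single_le_sum (f := fun χ => m χ * deg χ)
        (fun j _ => Nat.zero_le _) hV
      have hd : deg V = 4 := by
        have : deg V ≤ m V * deg V := Nat.le_mul_of_pos_left _ (Nat.pos_of_ne_zero hVm)
        omega
      refine ⟨V, (Finset.mem_filter.mp hV).2, hd, ?_⟩
      rw [irr_eq_deg_of_constituent hF hFt2 V hc, one_eq_deg, hd]
      norm_num
    · exact Or.inr ⟨by omega, fun χ hχ hm0 => by rw [huniqB χ hχ hm0]; omega⟩

/-- `conj θ * θ`: either no constituent of degree three and none big, or one of each and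
nothing else besides the principal character. -/
theorem prod_self (h : Hyp t) {θ : IrrCharacter G} (hθ : Three t θ) :
    ∃ m : IrrCharacter G → ℕ,
      (∀ χ : IrrCharacter G,
        classInner (fun g => conj ((θ : G → ℂ) g) * (θ : G → ℂ) g) (χ : G → ℂ) = m χ) ∧
      m one = 1 ∧ ((cThree t m = 0 ∧ cBig t m = 0) ∨
        (cThree t m = 1 ∧ cBig t m = 1 ∧ rZero t m = 0 ∧ ∀ χ, Big t χ → m χ ≠ 0 → deg χ = 5)) := by
  set F : G → ℂ := fun g => conj ((θ : G → ℂ) g) * (θ : G → ℂ) g with hFdef
  have hF : IsCharacter G F := isCharacter_conj_mul θ θ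
  have hF1 : F 1 = ((9 : ℕ) : ℂ) := by simp only [hFdef, hθ.1, map_ofNat]; norm_num
  have hFt : F t = ((1 : ℤ) : ℂ) := by simp [hFdef, hθ.2]
  obtain ⟨m, hm, hn, hv, hCP⟩ := decomp h hF hF1 hFt
  have hm1 : m one = 1 := by
    have h1 := hm one
    rw [show ((one : IrrCharacter G) : G → ℂ) = fun _ => (1 : ℂ) from rfl, hFdef,
      classInner_const_one, Char.classInner_irr_self θ.2] at h1
    exact_mod_cast h1.symm
  rw [hm1] at hn hv
  refine ⟨m, hm, hm1, ?_⟩
  rcases Nat.eq_zero_or_pos (cThree t m) with h0 | h0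
  · exact Or.inl ⟨h0, by omega⟩
  · right
    have hP : pBig t m = cThree t m := by omega
    have hC1 : 1 ≤ cBig t m := by
      by_contra hC
      have hC0 := eq_zero_of_sum_eq_zero (show cBig t m = 0 by omega)
      have : pBig t m = 0 := Finset.sum_eq_zero fun χ hχ => by rw [hC0 χ hχ, zero_mul]
      omega
    refine ⟨by omega, by omega, by omega, fun χ hχ hm0 => ?_⟩
    have hle : m χ * (deg χ - 4) ≤ pBig t m :=
      Finset.single_le_sum (f := fun χ => m χ * (deg χ - 4)) (fun j _ => Nat.zero_le _)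
        (Finset.mem_filter.mpr ⟨Finset.mem_univ _, hχ⟩)
    have : deg χ - 4 ≤ m χ * (deg χ - 4) := Nat.le_mul_of_pos_left _ (Nat.pos_of_ne_zero hm0)
    have := hχ.1
    omega

end Cfsg.Agent.ConstFour
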