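import Cfsg.Agent.ConstFour.Config

/-!
# The kernel of the characters of degree three
-/

set_option autoImplicit false
set_option linter.unusedSectionVars false

open scoped ComplexConjugate Classical
open Cfsg

namespace Cfsg.Agent.ConstFour

universe u

variable {G : Type u} [Group G] [Fintype G] {t : G}

theorem Config.sum_irr (h : Hyp t) (c : Config t) (g : G) :
    ∑ χ : IrrCharacter G, (χ : G → ℂ) g * conj ((χ : G → ℂ) t)
      = 1 - (c.θ : G → ℂ) g - (c.θ' : G → ℂ) g + (c.φ : G → ℂ) g := by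
  rw [sum_split h, c.three_eq, c.big_eq, Finset.sum_pair c.hne.symm, Finset.sum_singleton,
    Finset.sum_eq_zero (s := Finset.univ.filter (Zero t)) fun χ hχ => by
      rw [(Finset.mem_filter.mp hχ).2.2, map_zero, mul_zero],
    one_apply, one_apply, map_one, c.hθ.2, c.hθ'.2, c.hφ.2, c.hφ5]
  simp only [map_neg, map_one, map_sub, map_natCast, map_ofNat]
  push_cast
  ring

theorem Config.card_centralizer (h : Hyp t) (c : Config t) :
    Nat.card (Subgroup.centralizer ({t} : Set G)) = 4 := by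
  have h1 := Char.sum_irr_mul_conj t t
  rw [if_pos (IsConj.refl t), c.sum_irr h, c.hθ.2, c.hθ'.2, c.hφ.2, c.hφ5] at h1
  have h2 : ((Nat.card (Subgroup.centralizer ({t} : Set G)) : ℕ) : ℂ) = ((4 : ℕ) : ℂ) := by
    rw [← h1]; norm_num
  exact_mod_cast h2

theorem Config.col (h : Hyp t) (c : Config t) {g : G} (hg : ¬ IsConj g t) :
    (c.θ' : G → ℂ) g = (c.θ : G → ℂ) g ^ 2 - 2 * (c.θ : G → ℂ) g ∧
      (c.θ : G → ℂ) g = (c.θ' : G → ℂ) g ^ 2 - 2 * (c.θ' : G → ℂ) g := by
  have h1 := Char.sum_irr_mul_conj g t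
  rw [if_neg hg, c.sum_irr h] at h1
  constructor
  · linear_combination -h1 + c.hφe g
  · linear_combination -h1 + c.hφe' g

theorem Config.conj_val (c : Config t) {g : G} (hg : IsConj g t) :
    (c.θ : G → ℂ) g = -1 ∧ (c.θ' : G → ℂ) g = -1 :=
  ⟨(Char.isClassFunction_eq_of_isConj (Char.irr_isClassFunction c.θ.2) hg).trans c.hθ.2,
    (Char.isClassFunction_eq_of_isConj (Char.irr_isClassFunction c.θ'.2) hg).trans c.hθ'.2⟩

/-- The class of `t` is where `θ = -1`. -/
theorem Config.isConj_iff_val (h : Hyp t) (c : Config t) (g : G) :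
    IsConj g t ↔ (c.θ : G → ℂ) g = -1 := by
  refine ⟨fun hg => (c.conj_val hg).1, fun hg => ?_⟩
  by_contra hn
  obtain ⟨h1, h2⟩ := c.col h hn
  rw [hg] at h1 h2
  rw [h1] at h2
  norm_num at h2

/-- Values off the class of `t`. -/
theorem Config.vals (h : Hyp t) (c : Config t) {g : G} (hg : ¬ IsConj g t) :
    ((c.θ : G → ℂ) g = 3 ∧ (c.θ' : G → ℂ) g = 3) ∨ ((c.θ : G → ℂ) g = 0 ∧ (c.θ' : G → ℂ) g = 0) ∨
      ((c.θ : G → ℂ) g + (c.θ' : G → ℂ) g = 1 ∧
        (c.θ : G → ℂ) g ^ 2 - (c.θ : G → ℂ) g = 1) := by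
  obtain ⟨h1, h2⟩ := c.col h hg
  set a := (c.θ : G → ℂ) g
  set b := (c.θ' : G → ℂ) g
  by_cases hab : a = b
  · rw [← hab] at h1 ⊢
    have h3 : a * (a - 3) = 0 := by linear_combination -h1
    rcases mul_eq_zero.mp h3 with h3 | h3
    · exact Or.inr (Or.inl ⟨h3, h3⟩)
    · exact Or.inl ⟨sub_eq_zero.mp h3, sub_eq_zero.mp h3⟩
  · have h3 : (a - b) * (a + b - 1) = 0 := by linear_combination h2 - h1
    have h4 : a + b - 1 = 0 := (mul_eq_zero.mp h3).resolve_left (sub_ne_zero.mpr hab)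
    exact Or.inr (Or.inr ⟨by linear_combination h4, by linear_combination h4 - h1⟩)

/-- The kernel of `θ`. -/
noncomputable def Config.K (c : Config t) : Subgroup G :=
  Classical.choose (Char.isCharacter_exists_kernel (Char.isCharacter_of_irr c.θ.2))

theorem Config.K_normal (c : Config t) : c.K.Normal :=
  (Classical.choose_spec (Char.isCharacter_exists_kernel (Char.isCharacter_of_irr c.θ.2))).1

theorem Config.mem_K (c : Config t) (g : G) : g ∈ c.K ↔ (c.θ : G → ℂ) g = 3 := by
  rw [← c.hθ.1]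
  exact (Classical.choose_spec
    (Char.isCharacter_exists_kernel (Char.isCharacter_of_irr c.θ.2))).2 g

theorem Config.not_mem_K (c : Config t) : t ∉ c.K := fun hh => by
  rw [c.mem_K, c.hθ.2] at hh
  norm_num at hh

theorem sum_eq_zero_of_three {χ : IrrCharacter G} (hχ : Three t χ) :
    ∑ g : G, (χ : G → ℂ) g = 0 :=
  Char.irr_sum_eq_zero χ.2 hχ.ne_one

theorem Config.card_G (h : Hyp t) (c : Config t) : Nat.card G = 60 * Nat.card c.K := by
  have h0 : ∑ g : G, ((c.θ : G → ℂ) g + (c.θ' : G → ℂ) g + (c.θ : G → ℂ) g * (c.θ' : G → ℂ) g)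
      = 0 := by
    rw [Finset.sum_add_distrib, Finset.sum_add_distrib, sum_eq_zero_of_three c.hθ,
      sum_eq_zero_of_three c.hθ', zero_add, zero_add]
    have h2 : ∑ g : G, (c.θ : G → ℂ) g * conj ((c.θ' : G → ℂ) g) = 0 := by
      rw [Char.sum_mul_conj_eq_card_mul_classInner,
        Char.classInner_irr_ne c.θ.2 c.θ'.2 (fun hh => c.hne (Subtype.ext hh).symm), mul_zero]
    rw [← h2]
    exact Finset.sum_congr rfl fun g _ => by rw [conj_of_real c.hr']
  have hpt : ∀ g : G,
      (c.θ : G → ℂ) g + (c.θ' : G → ℂ) g + (c.θ : G → ℂ) g * (c.θ' : G → ℂ) g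
        = (if g ∈ c.K then 15 else 0) - (if IsConj g t then 1 else 0) := by
    intro g
    by_cases hg : IsConj g t
    · have hK : g ∉ c.K := fun hh => by
        rw [c.mem_K, (c.conj_val hg).1] at hh
        norm_num at hh
      rw [if_pos hg, if_neg hK, (c.conj_val hg).1, (c.conj_val hg).2]
      norm_num
    · rw [if_neg hg, sub_zero]
      rcases c.vals h hg with ⟨e1, e2⟩ | ⟨e1, e2⟩ | ⟨e1, e2⟩
      · rw [if_pos ((c.mem_K g).mpr e1), e1, e2]; norm_num
      · rw [if_neg (fun hh => by rw [c.mem_K, e1] at hh; norm_num at hh), e1, e2]; norm_num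
      · rw [if_neg (fun hh => by
          rw [c.mem_K] at hh; rw [hh] at e2; norm_num at e2)]
        linear_combination (1 + (c.θ : G → ℂ) g) * e1 - e2
  rw [Finset.sum_congr rfl fun g _ => hpt g, Finset.sum_sub_distrib, ← Finset.sum_filter,
    ← Finset.sum_filter, Finset.sum_const, Finset.sum_const, nsmul_eq_mul, nsmul_eq_mul, mul_one,
    sub_eq_zero] at h0
  have hK : (Finset.univ.filter fun g : G => g ∈ c.K).card = Nat.card c.K := by
    rw [Nat.card_eq_fintype_card, Fintype.card_subtype]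
  have hC : (Finset.univ.filter fun g : G => IsConj g t).card
      = (Finset.univ.filter fun x : G => IsConj t x).card :=
    congrArg Finset.card (Finset.filter_congr fun x _ => ⟨IsConj.symm, IsConj.symm⟩)
  rw [hK, hC] at h0
  have h1 : Nat.card c.K * 15 = (Finset.univ.filter fun x : G => IsConj t x).card := by
    exact_mod_cast h0
  have h2 := Char.card_isConj_mul_card_centralizer t
  rw [c.card_centralizer h] at h2
  omega

/-- Every proper normal subgroup lies in `K`. -/
theorem Config.normal_le (h : Hyp t) (c : Config t) {N : Subgroup G} (hN : N.Normal) (hne : N ≠ ⊤) :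
    N ≤ c.K := by
  haveI := hN
  have hnt : t ∉ N := by
    intro ht
    obtain ⟨x, hx⟩ : ∃ x, x ∉ N := by
      by_contra hh
      push Not at hh
      exact hne (eq_top_iff.mpr fun x _ => hh x)
    have hx2 := mt (Char.mem_normal_iff_forall_irr N x).mpr hx
    push Not at hx2
    obtain ⟨χ, hχ, hχx⟩ := hx2
    rcases h.2 χ (fun e => hχx (by rw [e])) with h4 | h0
    · rw [hχ t ht, sub_self] at h4; norm_num at h4
    · rw [hχ t ht] at h0; exact Char.irr_one_ne_zero χ.2 h0
  obtain ⟨χ, hχne, hχN, hχt⟩ : ∃ χ : IrrCharacter G, (χ : G → ℂ) ≠ (fun _ => (1 : ℂ)) ∧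
      (∀ n ∈ N, (χ : G → ℂ) n = (χ : G → ℂ) 1) ∧ (χ : G → ℂ) t ≠ 0 := by
    by_contra hh
    push Not at hh
    haveI : Fintype (G ⧸ N) := Fintype.ofFinite _
    have h1 := Char.sum_irr_degree_mul (G := G ⧸ N) (t : G ⧸ N)
    rw [if_neg (mt (QuotientGroup.eq_one_iff t).mp hnt),
      Finset.sum_eq_single (⟨_, Char.isIrrCharacter_const_one⟩ : IrrCharacter (G ⧸ N))] at h1
    · simp at h1
    · intro ψ _ hψ
      have e := hh (Char.irrEquivQuotient N ψ).1 (fun e => hψ (Subtype.ext (funext fun x => by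
        obtain ⟨g, rfl⟩ := QuotientGroup.mk'_surjective N x
        exact (Char.irrEquivQuotient_apply N ψ g).symm.trans (congrFun e g)))) (Char.irrEquivQuotient N ψ).2
      rw [Char.irrEquivQuotient_apply] at e
      rw [e, mul_zero]
    · intro hh'; exact absurd (Finset.mem_univ _) hh'
  intro g hg
  have hgt : ¬ IsConj g t := fun hc => by
    obtain ⟨x, hx⟩ := isConj_iff.mp hc
    exact hnt (hx ▸ hN.conj_mem g hg x)
  obtain ⟨h1, h2⟩ := c.col h hgt
  have hgχ := hχN g hg
  rw [c.mem_K]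
  rcases cases_irr h χ with e | h3 | hB | hZ
  · exact absurd e hχne
  · have hmem : χ ∈ Finset.univ.filter (Three t) := Finset.mem_filter.mpr ⟨Finset.mem_univ _, h3⟩
    rw [c.three_eq, Finset.mem_insert, Finset.mem_singleton] at hmem
    rcases hmem with e | e <;> subst e
    · rw [hgχ, c.hθ.1]
    · rw [hgχ, c.hθ'.1] at h2
      rw [h2]; norm_num
  · have hmem : χ ∈ Finset.univ.filter (Big t) := Finset.mem_filter.mpr ⟨Finset.mem_univ _, hB⟩
    rw [c.big_eq, Finset.mem_singleton] at hmem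
    subst hmem
    rw [one_eq_deg, c.hφ5, c.hφe] at hgχ
    push_cast at hgχ
    rcases c.vals h hgt with ⟨e1, -⟩ | ⟨e1, -⟩ | ⟨-, e2⟩
    · exact e1
    · rw [e1] at hgχ; norm_num at hgχ
    · exfalso
      have : (0 : ℂ) = 5 := by linear_combination hgχ - e2
      norm_num at this
  · exact absurd hZ.2 hχt

/-- An element whose fourth power lies in `K` has its square in `K`. -/
theorem Config.sq_mem (h : Hyp t) (c : Config t) {y : G} (hy : y * y * (y * y) ∈ c.K) :
    y * y ∈ c.K := by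
  rw [c.mem_K] at hy ⊢
  rw [real_sq h c.hθ c.hr] at hy
  have h3 : ((c.θ : G → ℂ) (y * y) - 3) * ((c.θ : G → ℂ) (y * y) + 1) = 0 := by
    linear_combination hy
  rcases mul_eq_zero.mp h3 with h3 | h3
  · exact sub_eq_zero.mp h3
  exfalso
  have h4 : (c.θ : G → ℂ) (y * y) = -1 := by linear_combination h3
  rw [real_sq h c.hθ c.hr] at h4
  have h5 : ((c.θ : G → ℂ) y - 1) ^ 2 = 0 := by linear_combination h4
  have h6 : (c.θ : G → ℂ) y = 1 := sub_eq_zero.mp (pow_eq_zero_iff two_ne_zero |>.mp h5)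
  by_cases hyt : IsConj y t
  · rw [(c.conj_val hyt).1] at h6; norm_num at h6
  rcases c.vals h hyt with ⟨e1, -⟩ | ⟨e1, -⟩ | ⟨-, e2⟩
  · rw [e1] at h6; norm_num at h6
  · rw [e1] at h6; norm_num at h6
  · rw [h6] at e2; norm_num at e2

/-- An element outside `K` with square in `K` is conjugate to `t`. -/
theorem Config.isConj_of_sq (h : Hyp t) (c : Config t) {y : G} (hy : y ∉ c.K)
    (hy2 : y * y ∈ c.K) : IsConj y t := by
  rw [c.isConj_iff_val h]
  rw [c.mem_K, real_sq h c.hθ c.hr] at hy2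
  have h3 : ((c.θ : G → ℂ) y - 3) * ((c.θ : G → ℂ) y + 1) = 0 := by linear_combination hy2
  rcases mul_eq_zero.mp h3 with h3 | h3
  · exact absurd ((c.mem_K y).mpr (sub_eq_zero.mp h3)) hy
  · linear_combination h3

theorem Config.t_sq (h : Hyp t) (c : Config t) : t * t ∈ c.K :=
  (c.mem_K _).mpr (three_sq h c.hθ)

end Cfsg.Agent.ConstFour
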