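import Cfsg.Agent.ConstFour.Kernel
import Cfsg.Prelude.Def_CaseTheorems
import Cfsg.Agent.PSolv.Cores
import Cfsg.Agent.PGroup.Basic
import Cfsg.Agent.RecogA.TwiceOdd
import Cfsg.Agent.Golay.OctadInvolution
import Cfsg.Agent.PermB.Recognition
import Cfsg.Agent.Linear.OrderSixty
import Cfsg.Agent.Linear.SmallIso
import Cfsg.Agent.S3378

/-!
# `G ⧸ O(G)` is `PSL(2,5)` or `SL(2,5)` and `O(G)` is abelian
-/

set_option autoImplicit false
set_option linter.unusedSectionVars false
set_option linter.style.haveILetI false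

open scoped Classical
open Cfsg

namespace Cfsg.Agent.ConstFour

universe u

variable {G : Type u} [Group G] [Fintype G] {t : G}

theorem Config.quotient_simple (h : Hyp t) (c : Config t) [c.K.Normal] :
    IsSimpleGroup (G ⧸ c.K) := by
  haveI : Nontrivial (G ⧸ c.K) :=
    nontrivial_of_ne (t : G ⧸ c.K) 1 (mt (QuotientGroup.eq_one_iff t).mp c.not_mem_K)
  refine ⟨fun H hH => ?_⟩
  by_cases htop : H = ⊤
  · exact Or.inr htop
  · left
    haveI := hH
    have hne : H.comap (QuotientGroup.mk' c.K) ≠ ⊤ := fun e => htop (by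
      rw [← Subgroup.map_comap_eq_self_of_surjective (QuotientGroup.mk'_surjective c.K) H, e,
        Subgroup.map_top_of_surjective _ (QuotientGroup.mk'_surjective c.K)])
    have hle := c.normal_le h (hH.comap _) hne
    rw [eq_bot_iff]
    intro x hx
    obtain ⟨g, rfl⟩ := QuotientGroup.mk'_surjective c.K x
    rw [Subgroup.mem_bot]
    exact (QuotientGroup.eq_one_iff g).mpr (hle hx)

theorem factorization_sixty_two : (60 : ℕ).factorization 2 = 2 := by
  rw [show (60 : ℕ) = 2 ^ 2 * 15 from rfl, Nat.factorization_mul (by norm_num) (by norm_num),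
    Finsupp.add_apply, Nat.prime_two.factorization_pow, Finsupp.single_eq_same,
    Nat.factorization_eq_zero_of_not_dvd (by norm_num : ¬ 2 ∣ 15)]

theorem Config.oddCore_le (h : Hyp t) (c : Config t) : Cfsg.oddCore G ≤ c.K := by
  haveI : (Cfsg.oddCore G).Normal := by
    haveI := PSolv.pPrimeCore_characteristic 2 G
    infer_instance
  refine c.normal_le h inferInstance fun htop => ?_
  have h1 := PSolv.coprime_card_pPrimeCore 2 G
  rw [show Cfsg.pPrimeCore 2 G = ⊤ from htop, Subgroup.card_top, c.card_G h] at h1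
  have : (2 : ℕ) ∣ Nat.gcd (60 * Nat.card c.K) 2 := Nat.dvd_gcd (dvd_mul_of_dvd_left (by norm_num) _) dvd_rfl
  rw [h1] at this
  norm_num at this

theorem mk_four {Q : Type*} [Group Q] {S : Subgroup Q} (h4 : Nat.card S = 4) {x : Q} (hx : x ∈ S) :
    x * x * (x * x) = 1 := by
  have h1 : (⟨x, hx⟩ : S) ^ Nat.card S = 1 := pow_card_eq_one'
  rw [h4] at h1
  have h2 := congrArg Subtype.val h1
  simp only [SubgroupClass.coe_pow, OneMemClass.coe_one] at h2
  rw [← h2]
  simp [pow_succ, mul_assoc]

theorem structure_main (h : Hyp t) :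
    IsMulCommutative ↥(Cfsg.oddCore G) ∧
      ((Nonempty (G ⧸ Cfsg.oddCore G ≃* Matrix.ProjectiveSpecialLinearGroup (Fin 2) (ZMod 5)) ∧
          orderOf t = 2) ∨
       (Nonempty (G ⧸ Cfsg.oddCore G ≃* Matrix.SpecialLinearGroup (Fin 2) (ZMod 5)) ∧
          orderOf t = 4)) := by
  obtain ⟨c⟩ := config h
  haveI := c.K_normal
  haveI : Fact (Nat.Prime 2) := ⟨Nat.prime_two⟩
  haveI hsimple := c.quotient_simple h
  have hKpos : 0 < Nat.card c.K := Nat.card_pos
  have hG := c.card_G h
  have hQcard : Nat.card (G ⧸ c.K) = 60 := by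
    have h1 := Subgroup.card_eq_card_quotient_mul_card_subgroup c.K
    rw [hG] at h1
    exact (Nat.mul_right_cancel hKpos h1).symm
  set π := QuotientGroup.mk' c.K with hπ
  have hmem : ∀ g : G, π g = 1 ↔ g ∈ c.K := fun g => QuotientGroup.eq_one_iff g
  let S : Sylow 2 G := default
  have hS4 : Nat.card ((S : Subgroup G).map π) = 4 := by
    have h1 := (S.mapSurjective (QuotientGroup.mk'_surjective c.K)).card_eq_multiplicity
    rw [Sylow.coe_mapSurjective, hQcard, factorization_sixty_two] at h1
    exact h1.trans (by norm_num)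
  have hsq : ∀ y ∈ (S : Subgroup G), y * y ∈ c.K := fun y hy => c.sq_mem h (by
    rw [← hmem, map_mul, map_mul]
    exact mk_four hS4 (Subgroup.mem_map_of_mem π hy))
  obtain ⟨a, haS, haK⟩ : ∃ a ∈ (S : Subgroup G), a ∉ c.K := by
    by_contra hh
    push Not at hh
    have : (S : Subgroup G).map π = ⊥ := by
      rw [eq_bot_iff]
      rintro _ ⟨x, hx, rfl⟩
      exact (hmem x).mpr (hh x hx)
    rw [this, Subgroup.card_bot] at hS4
    norm_num at hS4
  obtain ⟨b, hbS, hbK, hab⟩ : ∃ b ∈ (S : Subgroup G), b ∉ c.K ∧ π b ≠ π a := by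
    by_contra hh
    push Not at hh
    have hsub : (((S : Subgroup G).map π : Subgroup (G ⧸ c.K)) : Set (G ⧸ c.K)) ⊆ {1, π a} := by
      rintro _ ⟨x, hx, rfl⟩
      by_cases hxK : x ∈ c.K
      · exact Or.inl ((hmem x).mpr hxK)
      · exact Or.inr (hh x hx hxK)
    have h1 := Set.ncard_le_ncard hsub (Set.toFinite _)
    rw [← Nat.card_coe_set_eq] at h1
    have h2 := Set.ncard_insert_le (1 : G ⧸ c.K) {π a}
    rw [Set.ncard_singleton] at h2
    have h3 : Nat.card (((S : Subgroup G).map π : Subgroup (G ⧸ c.K)) : Set (G ⧸ c.K)) = 4 := hS4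
    omega
  have haa : π a * π a = 1 := by rw [← map_mul]; exact (hmem _).mpr (hsq a haS)
  have habK : a * b ∉ c.K := fun hh => hab (by
    have h1 := (hmem _).mpr hh
    rw [map_mul] at h1
    exact mul_left_cancel (h1.trans haa.symm))
  have hconj : ∀ y, y ∉ c.K → y * y ∈ c.K → IsConj y t := fun y h1 h2 => c.isConj_of_sq h h1 h2
  have hC4 : ∀ y, IsConj y t → Nat.card (Subgroup.centralizer ({y} : Set G)) = 4 := fun y hy => by
    have h1 := Char.card_isConj_mul_card_centralizer y
    have h2 := Char.card_isConj_mul_card_centralizer t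
    have e : ∀ x, IsConj y x ↔ IsConj t x :=
      fun x => ⟨fun hh => hy.symm.trans hh, fun hh => hy.trans hh⟩
    rw [c.card_centralizer h] at h2
    rw [← Fintype.card_subtype, ← Nat.card_eq_fintype_card] at h1 h2
    rw [Nat.card_congr (Equiv.subtypeEquivRight e)] at h1
    haveI : Nonempty {x // IsConj t x} := ⟨⟨t, IsConj.refl t⟩⟩
    exact Nat.eq_of_mul_eq_mul_left Nat.card_pos (h1.trans h2.symm)
  have hord : ∀ y, IsConj y t → orderOf y = orderOf t := fun y hy => by
    obtain ⟨x, hx⟩ := isConj_iff.mp hy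
    rw [← hx]
    exact (orderOf_injective (MulAut.conj x).toMonoidHom (MulAut.conj x).injective y).symm
  have hcenta : ∀ {x y : G}, x * y = y * x → x ∈ Subgroup.centralizer ({y} : Set G) := fun hxy =>
    Subgroup.mem_centralizer_singleton_iff.mpr hxy
  have ht4 : orderOf t ∣ 4 := c.card_centralizer h ▸ Subgroup.orderOf_dvd_natCard _ (hcenta rfl)
  have hkey : ∀ y ∈ (S : Subgroup G), y ∉ c.K → ∀ k ∈ c.K, (k * y ∉ c.K ∧ k * y * (k * y) ∈ c.K) := by
    intro y hy hyK k hk
    refine ⟨fun hh => hyK ((Subgroup.mul_mem_cancel_left c.K hk).mp hh), (hmem _).mp ?_⟩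
    rw [map_mul, map_mul, (hmem k).mpr hk, one_mul, ← map_mul]
    exact (hmem _).mpr (hsq y hy)
  by_cases ht2 : t * t = 1
  · -- `t` an involution: `K = ⊥`
    have hinvol : ∀ y, y ∉ c.K → y * y ∈ c.K → y * y = 1 := fun y h1 h2 => by
      have e := hord y (hconj y h1 h2)
      rw [orderOf_eq_prime (x := t) (p := 2) (by rw [pow_two, ht2]) h.1] at e
      rw [← pow_two, ← e, pow_orderOf_eq_one]
    have hinv : ∀ y ∈ (S : Subgroup G), y ∉ c.K → ∀ k ∈ c.K, y * k * y⁻¹ = k⁻¹ := by
      intro y hy hyK k hk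
      have h1 := hinvol _ (hkey y hy hyK k hk).1 (hkey y hy hyK k hk).2
      have h2 : y⁻¹ = y := inv_eq_of_mul_eq_one_right (hinvol y hyK (hsq y hy))
      rw [h2]
      refine eq_inv_of_mul_eq_one_right ?_
      rw [← h1]
      group
    have hka : ∀ k ∈ c.K, a * k = k * a := by
      intro k hk
      have h1 := hinv _ ((S : Subgroup G).mul_mem haS hbS) habK k hk
      rw [show a * b * k * (a * b)⁻¹ = a * (b * k * b⁻¹) * a⁻¹ by group, hinv b hbS hbK k hk,
        hinv a haS haK k⁻¹ (c.K.inv_mem hk), inv_inv] at h1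
      have h3 := hinv a haS haK k hk
      rw [← h1, mul_inv_eq_iff_eq_mul] at h3
      exact h3
    have hba : b * a = a * b := by
      have h1 := hinvol _ habK (hsq _ ((S : Subgroup G).mul_mem haS hbS))
      rw [← inv_eq_of_mul_eq_one_right (hinvol a haK (hsq a haS)),
        ← inv_eq_of_mul_eq_one_right (hinvol b hbK (hsq b hbS)), ← mul_inv_rev,
        inv_eq_of_mul_eq_one_right h1,
        inv_eq_of_mul_eq_one_right (hinvol a haK (hsq a haS)),
        inv_eq_of_mul_eq_one_right (hinvol b hbK (hsq b hbS))]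
    set C := Subgroup.centralizer ({a} : Set G) with hC
    have hKC : c.K ≤ C := fun k hk => hcenta (hka k hk).symm
    let f : C →* G ⧸ c.K := π.comp C.subtype
    have hker : f.ker = c.K.subgroupOf C := by
      ext x
      rw [MonoidHom.mem_ker, Subgroup.mem_subgroupOf]
      exact hmem _
    have hrange : 4 ≤ Nat.card f.range := by
      have ha' : π a ∈ f.range := ⟨⟨a, hcenta rfl⟩, rfl⟩
      have hb' : π b ∈ f.range := ⟨⟨b, hcenta hba⟩, rfl⟩
      have hsub : (↑({1, π a, π b, π (a * b)} : Finset (G ⧸ c.K)) : Set (G ⧸ c.K))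
          ⊆ (f.range : Set (G ⧸ c.K)) := by
        intro x hx
        simp only [Finset.coe_insert, Finset.coe_singleton, Set.mem_insert_iff,
          Set.mem_singleton_iff] at hx
        rcases hx with rfl | rfl | rfl | rfl
        · exact f.range.one_mem
        · exact ha'
        · exact hb'
        · rw [map_mul]; exact f.range.mul_mem ha' hb'
      have ha1 : π a ≠ 1 := fun hh => haK ((hmem a).mp hh)
      have hb1 : π b ≠ 1 := fun hh => hbK ((hmem b).mp hh)
      have hab1 : π (a * b) ≠ 1 := fun hh => habK ((hmem _).mp hh)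
      have haab : π a ≠ π (a * b) := fun hh => hb1 (by simpa using hh)
      have hbab : π b ≠ π (a * b) := fun hh => ha1 (by simpa using hh)
      have hcard : ({1, π a, π b, π (a * b)} : Finset (G ⧸ c.K)).card = 4 := by
        rw [Finset.card_insert_of_notMem (by
            simp only [Finset.mem_insert, Finset.mem_singleton, not_or]
            exact ⟨ha1.symm, hb1.symm, hab1.symm⟩),
          Finset.card_insert_of_notMem (by
            simp only [Finset.mem_insert, Finset.mem_singleton, not_or]
            exact ⟨hab.symm, haab⟩), Finset.card_pair hbab]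
      have h1 := Set.ncard_le_ncard hsub (Set.toFinite _)
      rw [Set.ncard_coe_finset, hcard, ← Nat.card_coe_set_eq] at h1
      exact h1
    have h1 := f.ker.card_mul_index
    rw [Subgroup.index_ker, hker, Nat.card_congr (Subgroup.subgroupOfEquivOfLe hKC).toEquiv,
      hC4 a (hconj a haK (hsq a haS))] at h1
    have hK1 : Nat.card c.K = 1 := by
      have := Nat.mul_le_mul_left (Nat.card c.K) hrange
      omega
    have hKbot : c.K = ⊥ := Subgroup.card_eq_one.mp hK1
    have hO : Cfsg.oddCore G = ⊥ := le_bot_iff.mp (hKbot ▸ c.oddCore_le h)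
    refine ⟨?_, Or.inl ⟨?_, orderOf_eq_prime (by rw [pow_two, ht2]) h.1⟩⟩
    · rw [hO]; infer_instance
    · haveI : (Cfsg.oddCore G).Normal := by
        haveI := PSolv.pPrimeCore_characteristic 2 G
        infer_instance
      obtain ⟨e1⟩ := Linear.simple_order_sixty_iso hQcard
      obtain ⟨e2⟩ := Linear.psl_two_zmod_five_iso
      exact ⟨(QuotientGroup.quotientMulEquivOfEq (hO.trans hKbot.symm)).trans (e1.trans e2.symm)⟩
  · -- `t` of order four
    have ht : orderOf t = 4 := by
      rcases (Nat.dvd_prime_pow Nat.prime_two (m := 2)).mp (by simpa using ht4) with ⟨j, hj, e⟩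
      interval_cases j
      · exact absurd (orderOf_eq_one_iff.mp (by simpa using e)) h.1
      · exact absurd (by rw [← pow_two]; exact orderOf_dvd_iff_pow_eq_one.mp (by rw [e]; norm_num)) ht2
      · simpa using e
    have hy4 : ∀ y, y ∉ c.K → y * y ∈ c.K → orderOf y = 4 := fun y h1 h2 =>
      (hord y (hconj y h1 h2)).trans ht
    have hCy : ∀ y, y ∉ c.K → y * y ∈ c.K →
        Subgroup.centralizer ({y} : Set G) = Subgroup.zpowers y := fun y h1 h2 =>
      (Subgroup.eq_of_le_of_card_ge (Subgroup.zpowers_le.mpr (hcenta rfl))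
        (by rw [hC4 y (hconj y h1 h2), Nat.card_zpowers, hy4 y h1 h2])).symm
    have hsmall : ∀ y, y ∉ c.K → y * y ∈ c.K → ∀ z ∈ c.K, z * y = y * z → z = 1 ∨ z = y * y := by
      intro y h1 h2 z hz hzy
      have h3 : z ∈ Subgroup.zpowers y := hCy y h1 h2 ▸ hcenta hzy
      obtain ⟨i, hi, hiz⟩ := Finset.mem_image.mp (mem_zpowers_iff_mem_range_orderOf.mp h3)
      rw [hy4 y h1 h2, Finset.mem_range] at hi
      interval_cases i
      · exact Or.inl (by rw [← hiz, pow_zero])
      · rw [pow_one] at hiz
        exact absurd (hiz ▸ hz) h1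
      · exact Or.inr (by rw [← hiz, pow_two])
      · rw [pow_succ, pow_two] at hiz
        exact absurd ((Subgroup.mul_mem_cancel_left c.K h2).mp (hiz ▸ hz)) h1
    set T := c.K.subgroupOf (S : Subgroup G) with hT
    haveI : T.Normal := Subgroup.Normal.subgroupOf c.K_normal _
    have hTne : T ≠ ⊥ := fun hbot => by
      have h1 : (⟨a * a, (S : Subgroup G).mul_mem haS haS⟩ : (S : Subgroup G)) ∈ T :=
        Subgroup.mem_subgroupOf.mpr (hsq a haS)
      rw [hbot, Subgroup.mem_bot] at h1
      have h2 : a * a = 1 := congrArg Subtype.val h1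
      have h3 := orderOf_dvd_iff_pow_eq_one.mpr (show a ^ 2 = 1 by rw [pow_two, h2])
      rw [hy4 a haK (hsq a haS)] at h3
      norm_num at h3
    obtain ⟨z', hz', hz1⟩ := (Subgroup.bot_or_exists_ne_one _).resolve_left
      (PGroup.inf_center_ne_bot S.2 T hTne)
    set z : G := (z' : G) with hzdef
    have hzK : z ∈ c.K := Subgroup.mem_subgroupOf.mp hz'.1
    have hzc : ∀ y ∈ (S : Subgroup G), z * y = y * z := fun y hy =>
      (congrArg Subtype.val (Subgroup.mem_center_iff.mp hz'.2 ⟨y, hy⟩)).symm
    have hzy : ∀ y ∈ (S : Subgroup G), y ∉ c.K → y * y = z := fun y hy hyK =>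
      ((hsmall y hyK (hsq y hy) z hzK (hzc y hy)).resolve_left
        (fun hh => hz1 (Subtype.ext hh))).symm
    have hinv : ∀ y ∈ (S : Subgroup G), y ∉ c.K → ∀ x ∈ (S : Subgroup G), x ∈ c.K →
        y * x * y⁻¹ = x⁻¹ := by
      intro y hy hyK x hx hxK
      have h1 := hzy _ ((S : Subgroup G).mul_mem hx hy) (hkey y hy hyK x hxK).1
      rw [← hzy y hy hyK] at h1
      have h2 : x * y * x = y := mul_right_cancel (show x * y * x * y = y * y by rw [← h1]; group)
      rw [eq_inv_iff_mul_eq_one, ← mul_right_inj x]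
      calc x * (y * x * y⁻¹ * x) = x * y * x * (y⁻¹ * x) := by group
        _ = y * (y⁻¹ * x) := by rw [h2]
        _ = x * 1 := by group
    have hTtwo : ∀ x ∈ (S : Subgroup G), x ∈ c.K → x = 1 ∨ x = z := by
      intro x hx hxK
      have h1 := hinv _ ((S : Subgroup G).mul_mem haS hbS) habK x hx hxK
      rw [show a * b * x * (a * b)⁻¹ = a * (b * x * b⁻¹) * a⁻¹ by group, hinv b hbS hbK x hx hxK,
        hinv a haS haK x⁻¹ ((S : Subgroup G).inv_mem hx) (c.K.inv_mem hxK), inv_inv] at h1
      have h3 := hinv a haS haK x hx hxK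
      rw [← h1, mul_inv_eq_iff_eq_mul] at h3
      rcases hsmall a haK (hsq a haS) x hxK h3.symm with e | e
      · exact Or.inl e
      · exact Or.inr (e.trans (hzy a haS haK))
    have hTcard : Nat.card T = 2 := by
      rw [Nat.card_eq_two_iff' (1 : T)]
      refine ⟨⟨z', hz'.1⟩, fun e => hz1 (congrArg Subtype.val e), fun w hw => ?_⟩
      have hwK : ((w : (S : Subgroup G)) : G) ∈ c.K := Subgroup.mem_subgroupOf.mp w.2
      rcases hTtwo _ (w : (S : Subgroup G)).2 hwK with e | e
      · exact absurd (Subtype.ext (Subtype.ext e) : w = 1) hw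
      · exact Subtype.ext (Subtype.ext e)
    have hScard : Nat.card (S : Subgroup G) = 8 := by
      let f : (S : Subgroup G) →* G ⧸ c.K := π.comp (S : Subgroup G).subtype
      have h1 := f.ker.card_mul_index
      have hker : f.ker = T := by
        ext x
        rw [MonoidHom.mem_ker, hT, Subgroup.mem_subgroupOf]
        exact hmem _
      rw [Subgroup.index_ker, MonoidHom.range_comp, Subgroup.range_subtype, hS4, hker, hTcard] at h1
      exact h1.symm
    obtain ⟨m, hm, hKm⟩ : ∃ m, Odd m ∧ Nat.card c.K = 2 * m := by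
      have h1 := S.card_eq_multiplicity
      rw [hScard, hG, Nat.factorization_mul (by norm_num) hKpos.ne', Finsupp.add_apply,
        factorization_sixty_two, show (8 : ℕ) = 2 ^ 3 from rfl] at h1
      have h2 := Nat.pow_right_injective (le_refl 2) h1
      have h3 : (Nat.card c.K).factorization 2 = 1 := by omega
      refine ⟨Nat.card c.K / 2, ?_, ?_⟩
      · rw [← Nat.not_even_iff_odd, even_iff_two_dvd]
        have h4 := Nat.not_dvd_ordCompl Nat.prime_two hKpos.ne'
        rw [h3, pow_one] at h4
        exact h4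
      · have h4 := Nat.ordProj_mul_ordCompl_eq_self (Nat.card c.K) 2
        rw [h3, pow_one] at h4
        exact h4.symm
    obtain ⟨O₀, hO₀card, hO₀mem⟩ := RecogA.exists_subgroup_of_card_two_mul_odd hm hKm
    haveI hOn : (Cfsg.oddCore G).Normal := by
      haveI := PSolv.pPrimeCore_characteristic 2 G
      infer_instance
    have hOeq : Cfsg.oddCore G = O₀.map c.K.subtype := by
      apply le_antisymm
      · intro g hg
        have hgK := c.oddCore_le h hg
        refine ⟨⟨g, hgK⟩, (hO₀mem _).mpr (Subtype.ext ?_), rfl⟩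
        simp only [SubgroupClass.coe_pow, OneMemClass.coe_one]
        refine orderOf_dvd_iff_pow_eq_one.mp ?_
        refine (Nat.Coprime.dvd_of_dvd_mul_left ?_ (hKm ▸ Subgroup.orderOf_dvd_natCard _ hgK))
        exact (PSolv.coprime_card_pPrimeCore 2 G).coprime_dvd_left
          (Subgroup.orderOf_dvd_natCard (Cfsg.pPrimeCore 2 G) hg)
      · refine PSolv.le_pPrimeCore ⟨?_⟩ ?_
        · rintro _ ⟨x, hx, rfl⟩ g
          refine ⟨⟨g * x * g⁻¹, c.K_normal.conj_mem _ x.2 g⟩, (hO₀mem _).mpr (Subtype.ext ?_), rfl⟩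
          simp only [SubgroupClass.coe_pow, OneMemClass.coe_one]
          rw [conj_pow]
          have h2 : (x : G) ^ m = 1 := by
            have := congrArg Subtype.val ((hO₀mem x).mp hx)
            simpa using this
          rw [h2, mul_one, mul_inv_cancel]
        · rw [Subgroup.card_map_of_injective c.K.subtype_injective, hO₀card]
          exact (Nat.coprime_two_right.mpr hm)
    have hOcard : Nat.card (Cfsg.oddCore G) = m := by
      rw [hOeq, Subgroup.card_map_of_injective c.K.subtype_injective, hO₀card]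
    have hodd : ∀ w ∈ Cfsg.oddCore G, ∀ k : ℕ, w ^ (2 ^ k) = 1 → w = 1 := by
      intro w hw k hwk
      refine orderOf_eq_one_iff.mp (Nat.eq_one_of_dvd_coprimes ?_
        (orderOf_dvd_iff_pow_eq_one.mpr hwk) (hOcard ▸ Subgroup.orderOf_dvd_natCard _ hw))
      exact (Nat.coprime_two_left.mpr hm).pow_left k
    have hfpf : ∀ y ∈ (S : Subgroup G), y ∉ c.K → ∀ w ∈ Cfsg.oddCore G, w * y = y * w → w = 1 := by
      intro y hy hyK w hw hwy
      rcases hsmall y hyK (hsq y hy) w (c.oddCore_le h hw) hwy with e | e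
      · exact e
      · refine hodd w hw 1 ?_
        rw [e, pow_one, pow_two, show y * y * (y * y) = y ^ 4 by simp [pow_succ, mul_assoc],
          ← hy4 y hyK (hsq y hy), pow_orderOf_eq_one]
    have hW : ∀ y ∈ (S : Subgroup G), y ∉ c.K → ∀ w ∈ Cfsg.oddCore G, z * w = w * z →
        y * w * y⁻¹ = w⁻¹ := by
      intro y hy hyK w hw hzw
      let W : Subgroup G := Cfsg.oddCore G ⊓ Subgroup.centralizer {z}
      let φ : W →* W := MonoidHom.mk'
        (fun x => ⟨y * x * y⁻¹, hOn.conj_mem _ x.2.1 y, hcenta (by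
          have hx := Subgroup.mem_centralizer_singleton_iff.mp x.2.2
          have hz' := hzc y hy
          calc y * x * y⁻¹ * z = y * x * (y⁻¹ * z) := by group
            _ = y * x * (z * y⁻¹) := by
                rw [(Commute.inv_right (hz' : Commute z y)).eq]
            _ = y * (x * z) * y⁻¹ := by group
            _ = y * (z * x) * y⁻¹ := by rw [hx]
            _ = z * (y * x * y⁻¹) := by rw [← mul_assoc y z, ← hz']; group)⟩)
        fun x x' => Subtype.ext (by
          show y * ((x : G) * x') * y⁻¹ = y * x * y⁻¹ * (y * x' * y⁻¹)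
          group)
      have h1 : MonoidHom.FixedPointFree φ := fun x hx => Subtype.ext (hfpf y hy hyK x x.2.1 (by
        have := congrArg Subtype.val hx
        change y * (x : G) * y⁻¹ = x at this
        rw [mul_inv_eq_iff_eq_mul] at this
        exact this.symm))
      have h2 : Function.Involutive φ := fun x => Subtype.ext (by
        show y * (y * (x : G) * y⁻¹) * y⁻¹ = x
        rw [show y * (y * (x : G) * y⁻¹) * y⁻¹ = (y * y) * x * (y * y)⁻¹ by group, hzy y hy hyK,
          mul_inv_eq_iff_eq_mul, (Subgroup.mem_centralizer_singleton_iff.mp x.2.2)])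
      exact congrArg Subtype.val (congrFun (h1.coe_eq_inv_of_involutive h2)
        ⟨w, hw, hcenta hzw.symm⟩)
    have hzz : z * z = 1 := by
      rw [← hzy a haS haK, show a * a * (a * a) = a ^ 4 by simp [pow_succ, mul_assoc],
        ← hy4 a haK (hsq a haS), pow_orderOf_eq_one]
    have hzinv := Golay.inverts_of_fixedPointFree (K := Cfsg.oddCore G) (u := z) hzz
      ((Subgroup.normalizer_eq_top_iff.mpr hOn).symm ▸ Subgroup.mem_top z) (by
        intro w hw hzw
        rw [mul_inv_eq_iff_eq_mul] at hzw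
        have h1 := hW _ ((S : Subgroup G).mul_mem haS hbS) habK w hw hzw
        rw [show a * b * w * (a * b)⁻¹ = a * (b * w * b⁻¹) * a⁻¹ by group, hW b hbS hbK w hw hzw,
          hW a haS haK w⁻¹ ((Cfsg.oddCore G).inv_mem hw)
            (Commute.inv_right (hzw : Commute z w)).eq, inv_inv] at h1
        refine hodd w hw 1 ?_
        rw [pow_one, pow_two]
        exact eq_inv_iff_mul_eq_one.mp h1)
    refine ⟨PermB.isMulCommutative_of_inverted hzinv, Or.inr ⟨?_, ht⟩⟩
    have h120 : Nat.card (G ⧸ Cfsg.oddCore G) = 120 := by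
      have h1 := Subgroup.card_eq_card_quotient_mul_card_subgroup (Cfsg.oddCore G)
      rw [hG, hOcard, hKm, ← mul_assoc] at h1
      exact (Nat.mul_right_cancel hm.pos h1).symm
    have hns : ¬ Group.IsSolvable (G ⧸ Cfsg.oddCore G) := by
      intro hsol
      haveI : Nontrivial (G ⧸ Cfsg.oddCore G) := Finite.one_lt_card_iff_nontrivial.mp (by omega)
      have h1 := IsSolvable.commutator_lt_top_of_nontrivial (G ⧸ Cfsg.oddCore G)
      refine h1.ne (eq_top_iff.mpr ?_)
      have h2 := Subgroup.map_commutator (⊤ : Subgroup G) ⊤ (QuotientGroup.mk' (Cfsg.oddCore G))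
      rw [← commutator_def, perfect h,
        Subgroup.map_top_of_surjective _ (QuotientGroup.mk'_surjective _), ← commutator_def] at h2
      exact h2.le
    refine S3378.sl_of_quaternion_sylow _ h120 hns fun P => ?_
    let S' := S.mapSurjective (QuotientGroup.mk'_surjective (Cfsg.oddCore G))
    have hinj : Set.InjOn (QuotientGroup.mk' (Cfsg.oddCore G)) (S : Subgroup G) := by
      intro x hx y hy hxy
      have h1 : x⁻¹ * y ∈ Cfsg.oddCore G := QuotientGroup.eq.mp hxy
      have h2 : x⁻¹ * y ∈ (S : Subgroup G) := mul_mem (inv_mem hx) hy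
      refine inv_mul_eq_one.mp (hodd _ h1 3 ?_)
      have h3 : (⟨_, h2⟩ : (S : Subgroup G)) ^ Nat.card (S : Subgroup G) = 1 := pow_card_eq_one'
      rw [hScard] at h3
      exact congrArg Subtype.val h3
    let f : (S : Subgroup G) →* (S' : Subgroup (G ⧸ Cfsg.oddCore G)) :=
      (QuotientGroup.mk' (Cfsg.oddCore G)).subgroupMap (S : Subgroup G)
    have hbij : Function.Bijective f := ⟨fun x y hxy =>
      Subtype.ext (hinj x.2 y.2 (congrArg Subtype.val hxy)),
      MonoidHom.subgroupMap_surjective _ _⟩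
    obtain ⟨eQ⟩ := TwoGroups.equiv_quaternion_of_generators (n := 2)
      (G := (S : Subgroup G)) (a := ⟨a, haS⟩) (b := ⟨b, hbS⟩)
      (by rw [← Subgroup.orderOf_coe]; exact hy4 a haK (hsq a haS))
      (by rw [hScard])
      (fun hh => by
        obtain ⟨i, hi, hib⟩ := Finset.mem_image.mp (mem_zpowers_iff_mem_range_orderOf.mp hh)
        rw [← Subgroup.orderOf_coe, hy4 a haK (hsq a haS), Finset.mem_range] at hi
        have e : a ^ i = b := congrArg Subtype.val hib
        interval_cases i
        · exact hbK (by rw [← e, pow_zero]; exact c.K.one_mem)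
        · exact hab (by rw [← e, pow_one])
        · exact hbK (by rw [← e, pow_two]; exact hsq a haS)
        · exact hab (by rw [← e, map_pow, pow_succ, pow_two, haa, one_mul]))
      (Subtype.ext (show b * b = a ^ 2 by rw [pow_two, hzy b hbS hbK, hzy a haS haK]))
      (Subtype.ext (show b * a * b⁻¹ = a⁻¹ by
        have h1 := hzy _ ((S : Subgroup G).mul_mem haS hbS) habK
        have h2 : b * a * b = a := by
          refine mul_left_cancel (a := a) ?_
          rw [hzy a haS haK, ← h1]
          group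
        calc b * a * b⁻¹ = b * a * b * (b * b)⁻¹ := by group
          _ = a⁻¹ := by rw [h2, hzy b hbS hbK, ← hzy a haS haK]; group))
    exact ⟨((Sylow.equiv P S').trans (MulEquiv.ofBijective f hbij).symm).trans eQ⟩

end Cfsg.Agent.ConstFour
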